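import Cfsg.Agent.KleinNine.Setup
import Mathlib.GroupTheory.SpecificGroups.KleinFour

/-!
# Normal form of a faithful four-group on an elementary abelian group of order nine
-/

set_option autoImplicit false
set_option linter.style.haveILetI false

namespace Cfsg.Agent.KleinNine

open Subgroup
open scoped Pointwise

universe u

theorem exists_hyp {G : Type u} [Group G] [Finite G]
    (T : Sylow 3 G) (hab : IsMulCommutative (T : Subgroup G))
    (h3 : ∀ a ∈ (T : Subgroup G), a ^ 3 = 1) (hcard : Nat.card T = 9)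
    (hC : centralizer ((T : Subgroup G) : Set G) = T)
    [hn : ((T : Subgroup G).subgroupOf (normalizer ((T : Subgroup G) : Set G))).Normal]
    (hK : IsKleinFour (↥(normalizer ((T : Subgroup G) : Set G)) ⧸
      (T : Subgroup G).subgroupOf (normalizer ((T : Subgroup G) : Set G))))
    (hloc : ∀ t ∈ (T : Subgroup G), t ≠ 1 →
      centralizer ({t} : Set G) ≤ normalizer ((T : Subgroup G) : Set G)) :
    ∃ e f t b : G, Hyp (T : Subgroup G) e f t b := by
  classical
  haveI : Fact (Nat.Prime 3) := ⟨Nat.prime_three⟩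
  haveI : Fact (Nat.Prime 2) := ⟨Nat.prime_two⟩
  set TT : Subgroup G := (T : Subgroup G) with hTT
  set N : Subgroup G := normalizer (TT : Set G) with hN
  set S := TT.subgroupOf N with hS
  have hcomm : ∀ x ∈ TT, ∀ y ∈ TT, Commute x y := fun x hx y hy =>
    (congrArg Subtype.val (hab.is_comm.comm ⟨x, hx⟩ ⟨y, hy⟩) :)
  have hcube : ∀ x ∈ TT, x * x * x = 1 := fun x hx => by
    have := h3 x hx
    rwa [pow_succ, pow_two] at this
  have hcS : Nat.card S = 9 :=
    (Nat.card_congr (Subgroup.subgroupOfEquivOfLe le_normalizer).toEquiv).trans hcard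
  have hcN : Nat.card N = 36 := by
    rw [← S.card_mul_index, hcS, Subgroup.index_eq_card, hK.card_four]
  obtain ⟨P⟩ : Nonempty (Sylow 2 N) := inferInstance
  have hcP : Nat.card (P : Subgroup N) = 4 := by
    have h1 := (P : Subgroup N).card_mul_index
    have h2 := P.not_dvd_index
    rw [hcN] at h1
    obtain ⟨k, hk⟩ := IsPGroup.iff_card.1 P.2
    have h4 : Nat.card (P : Subgroup N) ∣ 4 := by
      refine Nat.Coprime.dvd_of_dvd_mul_right (n := 9) ?_ ⟨(P : Subgroup N).index, by rw [h1]⟩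
      rw [hk]; exact Nat.Coprime.pow_left k (by norm_num)
    have h5 := Nat.le_of_dvd (by norm_num) h4
    interval_cases hc : Nat.card (P : Subgroup N) <;> omega
  set V : Subgroup G := (P : Subgroup N).map N.subtype with hV
  have hcV : Nat.card V = 4 := by rw [hV, Subgroup.card_subtype, hcP]
  have hVN : V ≤ N := map_subtype_le _
  have hVT : ∀ v ∈ V, v ∈ TT → v = 1 := by
    intro v hv hvT
    rw [← orderOf_eq_one_iff]
    have h1 : orderOf v ∣ 4 := hcV ▸ Subgroup.orderOf_dvd_natCard V hv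
    have h2 : orderOf v ∣ 3 := orderOf_dvd_of_pow_eq_one (h3 v hvT)
    exact Nat.dvd_one.1 (by
      have := Nat.dvd_gcd h1 h2
      norm_num at this ⊢
      exact this)
  have hsq : ∀ v ∈ V, v * v = 1 := by
    intro v hv
    refine hVT _ (mul_mem hv hv) ?_
    have h1 : ((QuotientGroup.mk' S ⟨v, hVN hv⟩) : N ⧸ S) ^ 2 = 1 := by
      rw [← hK.exponent_two]; exact Monoid.pow_exponent_eq_one _
    rw [← map_pow] at h1
    have h2 := (QuotientGroup.eq_one_iff _).1 h1
    rw [Subgroup.mem_subgroupOf] at h2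
    simpa [pow_two] using h2
  have hinv : ∀ v ∈ V, v⁻¹ = v := fun v hv => inv_eq_of_mul_eq_one_right (hsq v hv)
  have hVc : ∀ v ∈ V, ∀ w ∈ V, Commute v w := fun v hv w hw => by
    show v * w = w * v
    calc v * w = (v * w)⁻¹ := (hinv _ (mul_mem hv hw)).symm
      _ = w * v := by rw [mul_inv_rev, hinv v hv, hinv w hw]
  have hVx : ∀ v ∈ V, ∀ x ∈ TT, v * x * v⁻¹ ∈ TT := fun v hv x hx =>
    (mem_normalizer_iff.1 (hVN hv) x).1 hx
  have hfaith : ∀ v ∈ V, (∀ x ∈ TT, v * x * v⁻¹ = x) → v = 1 := by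
    intro v hv hfix
    refine hVT v hv ?_
    rw [← hC]
    exact mem_centralizer_iff.2 fun x hx => ((mul_inv_eq_iff_eq_mul.1 (hfix x hx))).symm
  have hne4 : ∀ u v : G, ∃ w ∈ V, w ≠ u ∧ w ≠ v := by
    intro u v
    by_contra hc
    push Not at hc
    have h1 : (V : Set G) ⊆ {u, v} := fun w hw => by
      by_cases q : w = u
      · exact Or.inl q
      · exact Or.inr (hc w hw q)
    have h2 := Set.ncard_le_ncard h1 (Set.toFinite _)
    rw [← Nat.card_coe_set_eq, show Nat.card ((V : Set G) : Type u) = 4 from hcV] at h2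
    have h3 := Set.ncard_insert_le u ({v} : Set G)
    rw [Set.ncard_singleton] at h3
    omega
  have hfix : ∃ v ∈ V, v ≠ 1 ∧ ∃ f ∈ TT, f ≠ 1 ∧ v * f * v⁻¹ = f := by
    obtain ⟨v, hv, hv1, -⟩ := hne4 1 1
    obtain ⟨w, hw, hw1, hwv⟩ := hne4 1 v
    by_contra hc
    have hall : ∀ u ∈ V, u ≠ 1 → ∀ x ∈ TT, u * x * u⁻¹ = x⁻¹ := by
      intro u hu hu1 x hx
      by_contra hne
      refine hc ⟨u, hu, hu1, x * (u * x * u⁻¹), mul_mem hx (hVx u hu x hx),
        fun q => hne (eq_inv_of_mul_eq_one_right q), ?_⟩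
      rw [show u * (x * (u * x * u⁻¹)) * u⁻¹ = u * x * u⁻¹ * (u * u * x * (u * u)⁻¹) by group,
        hsq u hu, inv_one, mul_one, one_mul]
      exact (hcomm x hx _ (hVx u hu x hx)).eq.symm
    have h1 : v * w = 1 := hfaith _ (mul_mem hv hw) fun x hx => by
      rw [show v * w * x * (v * w)⁻¹ = v * (w * x * w⁻¹) * v⁻¹ by group, hall w hw hw1 x hx,
        hall v hv hv1 _ (inv_mem hx), inv_inv]
    exact hwv (by rw [← hinv v hv]; exact eq_inv_of_mul_eq_one_right h1)
  obtain ⟨t, htV, ht1, f, hf, hf1, htf⟩ := hfix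
  obtain ⟨x₀, hx₀, hx₀'⟩ : ∃ x ∈ TT, t * x * t⁻¹ ≠ x := by
    by_contra hc
    push Not at hc
    exact ht1 (hfaith t htV hc)
  obtain ⟨e, hee⟩ : ∃ e, e = x₀⁻¹ * (t * x₀ * t⁻¹) := ⟨_, rfl⟩
  have he : e ∈ TT := by rw [hee]; exact mul_mem (inv_mem hx₀) (hVx t htV x₀ hx₀)
  have he1 : e ≠ 1 := fun q => hx₀' (by
    rw [hee, inv_mul_eq_one] at q; exact q.symm)
  have hte : t * e * t⁻¹ = e⁻¹ := by
    rw [hee, mul_inv_rev, inv_inv]
    rw [show t * (x₀⁻¹ * (t * x₀ * t⁻¹)) * t⁻¹ = (t * x₀ * t⁻¹)⁻¹ * (t * t * x₀ * (t * t)⁻¹) by group,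
      hsq t htV, inv_one, mul_one, one_mul]
  have he3 := hcube e he
  have hf3 := hcube f hf
  have einv : e⁻¹ ≠ e := fun q => he1 (eq_one_of_sq_cube (by
    nth_rw 1 [← q]
    exact inv_mul_cancel e) he3)
  have finv : f⁻¹ ≠ f := fun q => hf1 (eq_one_of_sq_cube (by
    nth_rw 1 [← q]
    exact inv_mul_cancel f) hf3)
  have indepF : f ∉ zpowers e := by
    rintro ⟨k, hk⟩
    simp only at hk
    refine finv ?_
    conv_rhs => rw [← htf, ← hk, ← conj_zpow, hte, inv_zpow]
    rw [hk]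
  have indepE : e ∉ zpowers f := by
    rintro ⟨k, hk⟩
    simp only at hk
    refine einv ?_
    rw [← hte]
    conv_lhs => rw [← hk, ← conj_zpow, htf]
    exact hk
  have hzc : ∀ (a : G), a * a * a = 1 → a ≠ 1 → ∀ i : ℕ, i < 3 → a ^ i = 1 → i = 0 := by
    intro a ha ha1 i hi q
    interval_cases i
    · rfl
    · exact absurd (by simpa using q) ha1
    · exact absurd (eq_one_of_sq_cube (by rwa [pow_two] at q) ha) ha1
  have span : ∀ x ∈ TT, ∃ i j : ℤ, x = e ^ i * f ^ j := by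
    let F : Fin 3 × Fin 3 → TT := fun p =>
      ⟨e ^ (p.1 : ℕ) * f ^ (p.2 : ℕ), mul_mem (pow_mem he _) (pow_mem hf _)⟩
    have hF : Function.Injective F := by
      rintro ⟨i, j⟩ ⟨i', j'⟩ q
      have q' : e ^ (i : ℕ) * f ^ (j : ℕ) = e ^ (i' : ℕ) * f ^ (j' : ℕ) := congrArg Subtype.val q
      have q'' : e ^ ((i : ℤ) - i') = f ^ ((j' : ℤ) - j) := by
        calc e ^ ((i : ℤ) - i') = (e ^ (i' : ℕ))⁻¹ * (e ^ (i : ℕ) * f ^ (j : ℕ)) * (f ^ (j : ℕ))⁻¹ := by
              rw [← mul_assoc, mul_inv_cancel_right, ← zpow_natCast, ← zpow_natCast, ← zpow_neg,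
                ← zpow_add]
              congr 1; ring
          _ = f ^ ((j' : ℤ) - j) := by
              rw [q', inv_mul_cancel_left, ← zpow_natCast, ← zpow_natCast, ← zpow_neg, ← zpow_add]
              congr 1
      have h1 : e ^ ((i : ℤ) - i') = 1 := by
        rcases zpow_three_cases he3 ((i : ℤ) - i') with r | r | r
        · exact r
        · exact absurd (r ▸ q''.symm ▸ zpow_mem (mem_zpowers f) _) indepE
        · exact absurd (by
            rw [← inv_inv e, ← r, q'']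
            exact inv_mem (zpow_mem (mem_zpowers f) _)) indepE
      have h2 : f ^ ((j' : ℤ) - j) = 1 := q'' ▸ h1
      have d1 := orderOf_dvd_iff_zpow_eq_one.2 h1
      have d2 := orderOf_dvd_iff_zpow_eq_one.2 h2
      rw [orderOf_eq_prime (p := 3) (by rw [pow_succ, pow_two]; exact he3) he1] at d1
      rw [orderOf_eq_prime (p := 3) (by rw [pow_succ, pow_two]; exact hf3) hf1] at d2
      have := i.2; have := i'.2; have := j.2; have := j'.2
      refine Prod.ext (Fin.ext ?_) (Fin.ext ?_) <;> simp only <;> omega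
    have hFb := (Nat.bijective_iff_injective_and_card F).2 ⟨hF, by simp [hcard]⟩
    intro x hx
    obtain ⟨⟨i, j⟩, hij⟩ := hFb.2 ⟨x, hx⟩
    exact ⟨i, j, by rw [zpow_natCast, zpow_natCast]; exact (congrArg Subtype.val hij).symm⟩
  obtain ⟨w, hw, hw1, hwt⟩ := hne4 1 t
  have htw : t * w = w * t := hVc t htV w hw
  have hwe : w * e * w⁻¹ = e ∨ w * e * w⁻¹ = e⁻¹ := by
    have hm : t * (w * e * w⁻¹) * t⁻¹ = (w * e * w⁻¹)⁻¹ := by
      rw [show t * (w * e * w⁻¹) * t⁻¹ = (t * w) * e * (t * w)⁻¹ by group, htw,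
        show w * t * e * (w * t)⁻¹ = w * (t * e * t⁻¹) * w⁻¹ by group, hte, conj_inv]
    obtain ⟨i, j, hij⟩ := span _ (hVx w hw e he)
    rw [hij, ← conj_mul, ← conj_zpow, hte, ← conj_zpow, htf, mul_inv_rev,
      (hcomm _ (inv_mem (zpow_mem hf j)) _ (inv_mem (zpow_mem he i))).eq, inv_zpow] at hm
    have hj : f ^ j = 1 := eq_one_of_sq_cube
      (mul_eq_one_iff_eq_inv.2 (mul_left_cancel hm)) (hcube _ (zpow_mem hf j))
    rw [hij, hj, mul_one]
    rcases zpow_three_cases he3 i with r | r | r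
    · exfalso
      refine he1 ?_
      rw [hj, mul_one, r, conj_eq_one_iff] at hij
      exact hij
    · exact Or.inl r
    · exact Or.inr r
  have hwf : w * f * w⁻¹ = f ∨ w * f * w⁻¹ = f⁻¹ := by
    have hm : t * (w * f * w⁻¹) * t⁻¹ = w * f * w⁻¹ := by
      rw [show t * (w * f * w⁻¹) * t⁻¹ = (t * w) * f * (t * w)⁻¹ by group, htw,
        show w * t * f * (w * t)⁻¹ = w * (t * f * t⁻¹) * w⁻¹ by group, htf]
    obtain ⟨i, j, hij⟩ := span _ (hVx w hw f hf)
    rw [hij, ← conj_mul, ← conj_zpow, hte, ← conj_zpow, htf, inv_zpow, mul_left_inj] at hm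
    have hi : e ^ i = 1 := eq_one_of_sq_cube
      (mul_eq_one_iff_eq_inv.2 hm.symm) (hcube _ (zpow_mem he i))
    rw [hij, hi, one_mul]
    rcases zpow_three_cases hf3 j with r | r | r
    · exfalso
      refine hf1 ?_
      rw [hi, one_mul, r, conj_eq_one_iff] at hij
      exact hij
    · exact Or.inl r
    · exact Or.inr r
  have hgen : ∀ v ∈ V, v * e * v⁻¹ = e → v * f * v⁻¹ = f → v = 1 := by
    intro v hv q1 q2
    refine hfaith v hv fun x hx => ?_
    obtain ⟨i, j, rfl⟩ := span x hx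
    rw [← conj_mul, ← conj_zpow, q1, ← conj_zpow, q2]
  have hb : ∃ b ∈ V, b ≠ 1 ∧ b ≠ t ∧ b * e * b⁻¹ = e ∧ b * f * b⁻¹ = f⁻¹ := by
    rcases hwe with q1 | q1 <;> rcases hwf with q2 | q2
    · exact absurd (hgen w hw q1 q2) hw1
    · exact ⟨w, hw, hw1, hwt, q1, q2⟩
    · exfalso
      have h1 : t * w = 1 := hgen _ (mul_mem htV hw)
        (by rw [show t * w * e * (t * w)⁻¹ = t * (w * e * w⁻¹) * t⁻¹ by group, q1, ← conj_inv, hte,
          inv_inv])
        (by rw [show t * w * f * (t * w)⁻¹ = t * (w * f * w⁻¹) * t⁻¹ by group, q2, htf])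
      exact hwt (by rw [← hinv t htV]; exact eq_inv_of_mul_eq_one_right h1)
    · have e1 : t * w * e * (t * w)⁻¹ = e := by
        rw [show t * w * e * (t * w)⁻¹ = t * (w * e * w⁻¹) * t⁻¹ by group, q1, ← conj_inv, hte,
          inv_inv]
      have e2 : t * w * f * (t * w)⁻¹ = f⁻¹ := by
        rw [show t * w * f * (t * w)⁻¹ = t * (w * f * w⁻¹) * t⁻¹ by group, q2, ← conj_inv, htf]
      refine ⟨t * w, mul_mem htV hw, fun q => finv ?_, fun q => einv ?_, e1, e2⟩
      · rw [q] at e2; simpa using e2.symm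
      · rw [q, hte] at e1; exact e1
  obtain ⟨b, hbV, hb1, hbt, hbe, hbf⟩ := hb
  have hdecV : ∀ v ∈ V, v = 1 ∨ v = t ∨ v = b ∨ v = t * b := by
    have hb2 := hinv b hbV
    have hd1 : t * b ≠ 1 := fun q => hbt (by
      rw [← hinv t htV]; exact eq_inv_of_mul_eq_one_right q)
    have hd2 : t * b ≠ t := fun q => hb1 (by simpa using q)
    have hd3 : t * b ≠ b := fun q => ht1 (by simpa using q)
    have hsub : ({1, t, b, t * b} : Set G) ⊆ V := by
      rintro z (rfl | rfl | rfl | rfl)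
      exacts [one_mem V, htV, hbV, mul_mem htV hbV]
    have hc4 : ({1, t, b, t * b} : Set G).ncard = 4 := by
      rw [Set.ncard_insert_of_notMem (by simp [ht1.symm, hb1.symm, hd1.symm]),
        Set.ncard_insert_of_notMem (by simp [hbt.symm, hd2.symm]),
        Set.ncard_pair hd3.symm]
    have heq := Set.eq_of_subset_of_ncard_le hsub (by
      rw [hc4, ← Nat.card_coe_set_eq]; exact le_of_eq hcV) (Set.toFinite _)
    intro v hv
    have : v ∈ ({1, t, b, t * b} : Set G) := heq ▸ hv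
    simpa using this
  have hdec : ∀ n ∈ N, ∃ x ∈ TT, n = x ∨ n = x * t ∨ n = x * b ∨ n = x * (t * b) := by
    let F : TT × V → N := fun p =>
      ⟨(p.1 : G) * p.2, mul_mem (le_normalizer p.1.2) (hVN p.2.2)⟩
    have hF : Function.Injective F := by
      rintro ⟨x, v⟩ ⟨y, u⟩ q
      have q' : (x : G) * v = y * u := congrArg Subtype.val q
      have h1 : (v : G) * (u : G)⁻¹ = (x : G)⁻¹ * y := by
        rw [show (v : G) = (x : G)⁻¹ * (y * u) by rw [← q', inv_mul_cancel_left]]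
        group
      have h2 : (v : G) * (u : G)⁻¹ = 1 := hVT _ (mul_mem v.2 (inv_mem u.2))
        (h1 ▸ mul_mem (inv_mem x.2) y.2)
      have h3' : (v : G) = u := mul_inv_eq_one.1 h2
      exact Prod.ext (Subtype.ext (mul_right_cancel (h3' ▸ q'))) (Subtype.ext h3')
    have hFb := (Nat.bijective_iff_injective_and_card F).2
      ⟨hF, by rw [Nat.card_prod, hcV, hcN]; exact congrArg (· * 4) hcard⟩
    intro n hn
    obtain ⟨⟨x, v⟩, hxv⟩ := hFb.2 ⟨n, hn⟩
    have q : (x : G) * v = n := congrArg Subtype.val hxv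
    refine ⟨x, x.2, ?_⟩
    rcases hdecV v v.2 with r | r | r | r <;> rw [r] at q
    exacts [Or.inl (by rw [← q, mul_one]), Or.inr (Or.inl q.symm), Or.inr (Or.inr (Or.inl q.symm)),
      Or.inr (Or.inr (Or.inr q.symm))]
  have hsyl : ∀ Q : Subgroup G, IsPGroup 3 Q → ∃ g : G, ∀ z ∈ Q, g⁻¹ * z * g ∈ TT := by
    intro Q hQ
    obtain ⟨R, hR⟩ := hQ.exists_le_sylow
    obtain ⟨g, hg⟩ := MulAction.exists_smul_eq G T R
    refine ⟨g, fun z hz => ?_⟩
    have h1 := hR hz
    rw [← hg, Sylow.coe_subgroup_smul, Subgroup.mem_pointwise_smul_iff_inv_smul_mem] at h1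
    simpa [MulAut.smul_def, mul_assoc] using h1
  exact ⟨e, f, t, b,
    { card := hcard, he := he, hf := hf, e3 := he3, f3 := hf3, e1 := he1, f1 := hf1, span := span,
      indepE := indepE, indepF := indepF, cent := hC, loc := hloc, syl := hsyl,
      idx := T.not_dvd_index, tN := hVN htV, bN := hVN hbV, t2 := hsq t htV, b2 := hsq b hbV,
      tb := hVc t htV b hbV, te := hte, tf := mul_inv_eq_iff_eq_mul.1 htf,
      be := mul_inv_eq_iff_eq_mul.1 hbe, bf := hbf, dec := hdec }⟩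

end Cfsg.Agent.KleinNine
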