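import Cfsg.Agent.KleinNine.Setup
import Cfsg.Agent.CharInd.Basic
import Cfsg.Agent.OddChar.TIExistence
import Cfsg.Agent.Char.Linear
import Cfsg.Agent.Char.Kernel
import Cfsg.Agent.S0840

/-!
# A proper normal subgroup containing the involution `t`
-/

set_option autoImplicit false
set_option linter.unusedSectionVars false
set_option linter.style.haveILetI false
open scoped ComplexConjugate
open Cfsg

namespace Cfsg.Agent.KleinNine

open Subgroup

universe u

variable {G : Type u} [Group G] [Finite G] {T : Subgroup G} {e f t b : G}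

namespace Hyp

variable (h : Hyp T e f t b)
include h

theorem mem_J_iff {g : G} :
    g ∈ centralizer ({f} : Set G) ↔ ∃ x ∈ T, g = x ∨ g = x * t := by
  refine ⟨fun hg => h.cent_f (mem_centralizer_singleton_iff.1 hg), ?_⟩
  rintro ⟨x, hx, rfl | rfl⟩ <;> refine mem_centralizer_singleton_iff.2 ?_
  · exact (h.commT hx h.hf).eq
  · exact ((h.commT hx h.hf).mul_left h.tf).eq

theorem J_le : centralizer ({f} : Set G) ≤ normalizer (T : Set G) := h.loc f h.hf h.f1

theorem card_J : Nat.card (centralizer ({f} : Set G)) = 18 := by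
  classical
  let F : T × Bool → centralizer ({f} : Set G) := fun p =>
    ⟨if p.2 then (p.1 : G) * t else p.1, h.mem_J_iff.2 ⟨p.1, p.1.2, by cases p.2 <;> simp⟩⟩
  have hF : Function.Bijective F := by
    constructor
    · rintro ⟨x, i⟩ ⟨y, j⟩ q
      have q' := congrArg Subtype.val q
      cases i <;> cases j <;> simp only [F, Bool.false_eq_true, if_true, if_false] at q'
      · exact Prod.ext (Subtype.ext q') rfl
      · exact absurd (by rw [show t = (y : G)⁻¹ * x by rw [q']; group]; exact mul_mem (inv_mem y.2) x.2)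
          h.t_notMem
      · exact absurd (by rw [show t = (x : G)⁻¹ * y by rw [← q']; group]; exact mul_mem (inv_mem x.2) y.2)
          h.t_notMem
      · exact Prod.ext (Subtype.ext (mul_right_cancel q')) rfl
    · rintro ⟨g, hg⟩
      obtain ⟨x, hx, q | q⟩ := h.mem_J_iff.1 hg
      · exact ⟨(⟨x, hx⟩, false), Subtype.ext (by simp [F, q])⟩
      · exact ⟨(⟨x, hx⟩, true), Subtype.ext (by simp [F, q])⟩
  rw [← Nat.card_eq_of_bijective F hF, Nat.card_prod, h.card]
  simp

/-- The linear character of `C(f)` with kernel `⟨e, t⟩`. -/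
theorem exists_lambda : ∃ l : centralizer ({f} : Set G) →* ℂˣ,
    (∀ z : centralizer ({f} : Set G), l z ^ 3 = 1) ∧ l ≠ 1 ∧
    (∀ z, l z ≠ 1 → (z : G) * z ∈ T) ∧
    (∀ (z : centralizer ({f} : Set G)) (i : ℤ), (z : G) = e ^ i → l z = 1) ∧
    (∀ z w : centralizer ({f} : Set G), (w : G) = b * z * b⁻¹ → l w = (l z)⁻¹) := by
  set J := centralizer ({f} : Set G) with hJ
  let e' : J := ⟨e, h.mem_J_iff.2 ⟨e, h.he, Or.inl rfl⟩⟩
  let f' : J := ⟨f, h.mem_J_iff.2 ⟨f, h.hf, Or.inl rfl⟩⟩
  let t' : J := ⟨t, h.mem_J_iff.2 ⟨1, one_mem T, Or.inr (one_mul t).symm⟩⟩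
  have hfc : ∀ z : J, Commute f' z := fun z =>
    Subtype.ext (mem_centralizer_singleton_iff.1 z.2).symm
  have hgen : ∀ z : J, ∃ i j : ℤ, z = e' ^ i * f' ^ j ∨ z = e' ^ i * f' ^ j * t' := by
    intro z
    obtain ⟨x, hx, q⟩ := h.mem_J_iff.1 z.2
    obtain ⟨i, j, rfl⟩ := h.span x hx
    exact ⟨i, j, q.imp (fun q => Subtype.ext q) (fun q => Subtype.ext q)⟩
  have hEn : (zpowers e').Normal := by
    refine ⟨fun n hn g => ?_⟩
    obtain ⟨k, rfl⟩ := hn
    simp only [← conj_zpow]
    refine zpow_mem ?_ k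
    rcases h.norm_e (h.J_le g.2) with q | q
    · rw [show g * e' * g⁻¹ = e' from Subtype.ext q]; exact mem_zpowers e'
    · rw [show g * e' * g⁻¹ = e'⁻¹ from Subtype.ext q]; exact inv_mem (mem_zpowers e')
  set H : Subgroup J := zpowers e' ⊔ zpowers t' with hH
  have heH : e' ∈ H := mem_sup_left (mem_zpowers e')
  have htH : t' ∈ H := mem_sup_right (mem_zpowers t')
  have hmem : ∀ z : J, ∃ j : ℤ, z * (f' ^ j)⁻¹ ∈ H := by
    intro z
    obtain ⟨i, j, q | q⟩ := hgen z
    · exact ⟨j, by rw [q, mul_inv_cancel_right]; exact zpow_mem heH i⟩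
    · refine ⟨j, ?_⟩
      rw [q, mul_assoc (e' ^ i) (f' ^ j) t', ((hfc t').zpow_left j).eq, ← mul_assoc,
        mul_inv_cancel_right]
      exact mul_mem (zpow_mem heH i) htH
  have hHn : H.Normal := by
    refine ⟨fun a ha g => ?_⟩
    obtain ⟨j, hj⟩ := hmem g
    have e1 : g * a * g⁻¹ = g * (f' ^ j)⁻¹ * a * (g * (f' ^ j)⁻¹)⁻¹ := by
      rw [show g * (f' ^ j)⁻¹ * a * (g * (f' ^ j)⁻¹)⁻¹
          = g * ((f' ^ j)⁻¹ * a * f' ^ j) * g⁻¹ by group,
        mul_assoc (f' ^ j)⁻¹ a, ← ((hfc a).zpow_left j).eq, inv_mul_cancel_left]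
    rw [e1]
    exact mul_mem (mul_mem hj ha) (inv_mem hj)
  have ht2 : t' * t' = 1 := Subtype.ext h.t2
  have hfH : f' ∉ H := by
    intro hf'
    obtain ⟨y, ⟨i, hy⟩, z, ⟨k, hz⟩, q⟩ := mem_sup_of_normal_left.1 hf'
    simp only at hy hz
    subst hy hz
    have q' : e ^ i * t ^ k = f := congrArg Subtype.val q
    rcases Int.even_or_odd' k with ⟨m, rfl | rfl⟩
    · rw [zpow_mul, zpow_two, h.t2, one_zpow, mul_one] at q'
      exact h.indepF ⟨i, q'⟩
    · rw [zpow_add_one, zpow_mul, zpow_two, h.t2, one_zpow, one_mul] at q'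
      refine h.t_notMem ?_
      rw [show t = (e ^ i)⁻¹ * f by rw [← q', inv_mul_cancel_left]]
      exact mul_mem (inv_mem (zpow_mem h.he i)) h.hf
  have hcommQ : ∀ p q : J ⧸ H, p * q = q * p := by
    have hq : ∀ p : J ⧸ H, ∃ j : ℤ, p = (QuotientGroup.mk' H f') ^ j := by
      intro p
      obtain ⟨z, rfl⟩ := QuotientGroup.mk'_surjective H p
      obtain ⟨j, hj⟩ := hmem z
      refine ⟨j, ?_⟩
      have := (QuotientGroup.eq_one_iff _).2 hj
      rw [← map_zpow, ← mul_inv_eq_one, ← map_inv, ← map_mul]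
      exact this
    intro p q
    obtain ⟨i, rfl⟩ := hq p
    obtain ⟨j, rfl⟩ := hq q
    exact zpow_mul_comm _ i j
  have hfQ : QuotientGroup.mk' H f' ≠ 1 := fun q => hfH ((QuotientGroup.eq_one_iff _).1 q)
  obtain ⟨χ, hχ⟩ := Char.exists_irr_ne_degree hfQ
  obtain ⟨m, hm⟩ := Char.irr_exists_monoidHom_of_comm hcommQ χ.2
  let l : J →* ℂˣ := m.comp (QuotientGroup.mk' H)
  have hlH : ∀ z ∈ H, l z = 1 := fun z hz => by
    show m (QuotientGroup.mk' H z) = 1
    rw [show QuotientGroup.mk' H z = 1 from (QuotientGroup.eq_one_iff z).2 hz, map_one]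
  have hlf : l f' ≠ 1 := fun q => hχ (by
    rw [hm, hm, map_one]
    exact congrArg Units.val q)
  have hlf3 : l f' ^ 3 = 1 := by
    rw [← map_pow, show f' ^ 3 = 1 from Subtype.ext (by
      show f ^ 3 = 1
      rw [pow_succ, pow_two, h.f3]), map_one]
  have hlz : ∀ (z : J) (i j : ℤ), z = e' ^ i * f' ^ j ∨ z = e' ^ i * f' ^ j * t' →
      l z = l f' ^ j := by
    rintro z i j (rfl | rfl)
    · rw [map_mul, map_zpow, map_zpow, hlH e' heH, one_zpow, one_mul]
    · rw [map_mul, map_mul, map_zpow, map_zpow, hlH e' heH, hlH t' htH, one_zpow, one_mul, mul_one]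
  refine ⟨l, fun z => ?_, fun q => hlf (by rw [q]; rfl), fun z hz => ?_, fun z i q => ?_,
    fun z w q => ?_⟩
  · obtain ⟨i, j, hij⟩ := hgen z
    rw [hlz z i j hij, ← zpow_natCast, ← zpow_mul, mul_comm, zpow_mul, zpow_natCast, hlf3, one_zpow]
  · obtain ⟨x, hx, q | q⟩ := h.mem_J_iff.1 z.2
    · rw [q]; exact mul_mem hx hx
    · rw [q, show x * t * (x * t) = x * (t * x * t⁻¹) * (t * t) by group, h.t2, mul_one]
      exact mul_mem hx (h.conjT h.tN hx)
  · rw [show z = e' ^ i from Subtype.ext q, map_zpow, hlH e' heH, one_zpow]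
  · obtain ⟨i, j, hij⟩ := hgen z
    have hw : w = e' ^ i * f' ^ (-j) ∨ w = e' ^ i * f' ^ (-j) * t' := by
      have hbe : b * e ^ i * b⁻¹ = e ^ i := by
        rw [(h.be.zpow_right i).eq, mul_inv_cancel_right]
      have hbf : b * f ^ j * b⁻¹ = f ^ (-j) := by rw [← conj_zpow, h.bf, inv_zpow, zpow_neg]
      rcases hij with r | r
      · left
        refine Subtype.ext ?_
        show (w : G) = e ^ i * f ^ (-j)
        rw [q, r]
        show b * (e ^ i * f ^ j) * b⁻¹ = _
        rw [← conj_mul, hbe, hbf]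
      · right
        refine Subtype.ext ?_
        show (w : G) = e ^ i * f ^ (-j) * t
        rw [q, r]
        show b * (e ^ i * f ^ j * t) * b⁻¹ = _
        rw [← conj_mul, ← conj_mul, hbe, hbf, ← h.tb.eq, mul_inv_cancel_right]
    rw [hlz w i (-j) hw, hlz z i j hij, zpow_neg]

theorem card_pairs_eq_zero (hnc : ¬ IsConj t (t * b))
    {l : centralizer ({f} : Set G) →* ℂˣ} (hl3 : ∀ z, l z ^ 3 = 1)
    (hlT : ∀ z, l z ≠ 1 → (z : G) * z ∈ T)
    (hle : ∀ (z : centralizer ({f} : Set G)) (i : ℤ), (z : G) = e ^ i → l z = 1)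
    (y : centralizer ({f} : Set G)) (hy : l y ≠ 1) :
    Nat.card {p : G × G // IsConj t p.1 ∧ IsConj t p.2 ∧ p.1 * p.2 = (y : G)} = 0 := by
  refine Nat.card_eq_zero.2 (Or.inl ⟨?_⟩)
  rintro ⟨⟨u, v⟩, hu, hv, huv⟩
  simp only at hu hv huv
  have hinvol : ∀ w : G, IsConj t w → w * w = 1 ∧ w ≠ 1 := by
    intro w hw
    obtain ⟨c, rfl⟩ := isConj_iff.1 hw
    refine ⟨by rw [show c * t * c⁻¹ * (c * t * c⁻¹) = c * (t * t) * c⁻¹ by group, h.t2, mul_one,
      mul_inv_cancel], fun q => h.t_notMem ?_⟩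
    rw [conj_eq_one_iff.1 q]
    exact one_mem T
  obtain ⟨u2, u1⟩ := hinvol u hu
  obtain ⟨v2, v1⟩ := hinvol v hv
  have uinv : u⁻¹ = u := inv_eq_of_mul_eq_one_right u2
  have vinv : v⁻¹ = v := inv_eq_of_mul_eq_one_right v2
  have hyy : (y : G) * y ∈ T := hlT y hy
  have hyy1 : (y : G) * y ≠ 1 := fun q => hy (by
    have h2 : l y * l y = 1 := by rw [← map_mul, show y * y = 1 from Subtype.ext q, map_one]
    exact eq_one_of_sq_cube h2 (by rw [← pow_two, ← pow_succ]; exact hl3 y))
  have huN : u ∈ normalizer (T : Set G) := h.ti hyy hyy1 (by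
    rw [show u * ((y : G) * y) * u⁻¹ = ((y : G) * y)⁻¹ by
      rw [← huv, show u * (u * v * (u * v)) * u⁻¹ = u * u * v * u * (v * u⁻¹) by group,
        u2, one_mul, uinv]
      calc v * u * (v * u) = (v⁻¹ * u⁻¹) * (v⁻¹ * u⁻¹) := by rw [uinv, vinv]
        _ = (u * v * (u * v))⁻¹ := by group]
    exact inv_mem hyy)
  have hvN : v ∈ normalizer (T : Set G) := by
    rw [show v = u⁻¹ * (y : G) by rw [← huv, inv_mul_cancel_left]]
    exact mul_mem (inv_mem huN) (h.J_le y.2)
  have hform : ∀ w : G, IsConj t w → w ∈ normalizer (T : Set G) → ∃ i : ℤ, w = e ^ i * t := by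
    intro w hw hwN
    obtain ⟨w2, w1⟩ := hinvol w hw
    obtain ⟨x, hx, q | q | q | q⟩ := h.dec w hwN
    · exact absurd (eq_one_of_sq_cube w2 (by rw [q]; exact h.cube hx)) w1
    · obtain ⟨i, j, rfl⟩ := h.span x hx
      refine ⟨i, ?_⟩
      have e1 : t * (e ^ i * f ^ j) * t⁻¹ = (e ^ i * f ^ j)⁻¹ := by
        refine eq_inv_of_mul_eq_one_right ?_
        calc e ^ i * f ^ j * (t * (e ^ i * f ^ j) * t⁻¹)
            = e ^ i * f ^ j * t * (e ^ i * f ^ j * t⁻¹) := by group
          _ = 1 := by rw [h.tinv, ← q, w2]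
      rw [← conj_mul, ← conj_zpow, h.te, (h.tf.zpow_right j).eq, mul_inv_cancel_right, mul_inv_rev,
        inv_zpow, ((h.ef.zpow_zpow i j).inv_left.inv_right).symm.eq] at e1
      have e2 : f ^ j = 1 := by
        have e3 : f ^ j = (f ^ j)⁻¹ := mul_left_cancel e1
        refine eq_one_of_sq_cube (mul_eq_one_iff_eq_inv.2 e3) (h.cube (zpow_mem h.hf j))
      rw [q, e2, mul_one]
    · exact absurd (hw.trans (q ▸ h.invol_conj hx h.b2 (q ▸ w2)).symm) h.not_conj_t_b
    · exact absurd (hw.trans (q ▸ h.invol_conj hx h.tb2 (q ▸ w2)).symm) hnc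
  obtain ⟨i, rfl⟩ := hform u hu huN
  obtain ⟨k, rfl⟩ := hform v hv hvN
  refine hy (hle y (i - k) ?_)
  rw [← huv, show e ^ i * t * (e ^ k * t) = e ^ i * (t * e ^ k * t⁻¹) * (t * t) by group, h.t2,
    mul_one, ← conj_zpow, h.te, inv_zpow, ← zpow_sub]

theorem exists_normal_proper (hnc : ¬ IsConj t (t * b)) :
    ∃ K : Subgroup G, K.Normal ∧ K ≠ ⊤ ∧ t ∈ K := by
  classical
  letI := Fintype.ofFinite G
  obtain ⟨l, hl3, hl1, hlT, hle, hlb⟩ := h.exists_lambda
  revert hlb hle hlT hl1 hl3 l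
  set J := centralizer ({f} : Set G) with hJ
  intro l hl3 hl1 hlT hle hlb
  letI : Fintype J := Fintype.ofFinite J
  have hJ18 : (Nat.card J : ℂ) = 18 := by rw [h.card_J]; norm_num
  let φ : J → ℂ := fun z => (l z : ℂ) - 1
  have hφgen : IsGeneralizedCharacter J φ :=
    Char.isGeneralizedCharacter_sub
      (Char.isGeneralizedCharacter_of_irr (Char.isIrrCharacter_monoidHom l))
      (Char.isGeneralizedCharacter_of_irr Char.isIrrCharacter_const_one)
  set C := indFun J φ with hC
  have hCgen : IsGeneralizedCharacter G C := OddChar.indFun_isGeneralized J hφgen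
  have hCcl : IsClassFunction G C := Char.isGeneralizedCharacter_isClassFunction hCgen
  have hφ0 : ∀ z : J, z * z = 1 → φ z = 0 := fun z hz => by
    have h2 : l z * l z = 1 := by rw [← map_mul, hz, map_one]
    simp [φ, eq_one_of_sq_cube h2 (by rw [← pow_two, ← pow_succ]; exact hl3 z)]
  have hC1 : C 1 = 0 := by
    rw [hC, CharInd.indFun_one_apply, show φ 1 = 0 from hφ0 1 (one_mul 1), mul_zero]
  have hCt : C t = 0 := by
    rw [hC, CharInd.indFun_apply, Finset.sum_eq_zero, mul_zero]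
    intro x _
    by_cases hm : x⁻¹ * t * x ∈ J
    · rw [CharInd.extendByZero_mem J φ hm]
      refine hφ0 _ (Subtype.ext ?_)
      show x⁻¹ * t * x * (x⁻¹ * t * x) = 1
      rw [show x⁻¹ * t * x * (x⁻¹ * t * x) = x⁻¹ * (t * t) * x by group, h.t2, mul_one,
        inv_mul_cancel]
    · exact CharInd.extendByZero_notMem J φ hm
  -- values on the support of `φ`
  have hbJ : ∀ z : G, z ∈ J → b * z * b⁻¹ ∈ J := fun z hz => by
    refine mem_centralizer_singleton_iff.2 ?_
    have h1 := ((Commute.conj_iff b).2 (show Commute z f from mem_centralizer_singleton_iff.1 hz))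
    rw [h.bf] at h1
    simpa using h1.inv_right.eq
  have hCy : ∀ y : J, l y ≠ 1 → C (y : G) = -3 := by
    intro y hy
    have hy2 : (y : G) * y ≠ 1 := fun q => hy (by
      have h2 : l y * l y = 1 := by rw [← map_mul, show y * y = 1 from Subtype.ext q, map_one]
      exact eq_one_of_sq_cube h2 (by rw [← pow_two, ← pow_succ]; exact hl3 y))
    have hval : ∀ x : G, extendByZero J φ (x⁻¹ * y * x) =
        (if x ∈ J then φ y else 0) + (if b * x ∈ J then ((l y : ℂ)⁻¹ - 1) else 0) := by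
      intro x
      by_cases hx : x ∈ J
      · have hbx : b * x ∉ J := fun q => h.b_notMem (by
          have hbJ' : b ∈ J := by simpa using mul_mem q (inv_mem hx)
          have := mem_centralizer_singleton_iff.1 hbJ'
          exact absurd (by rw [← h.bf, this, mul_inv_cancel_right]) h.finv_ne)
        rw [if_pos hx, if_neg hbx, add_zero,
          CharInd.extendByZero_mem J φ (mul_mem (mul_mem (inv_mem hx) y.2) hx)]
        show ((l (⟨x, hx⟩⁻¹ * y * ⟨x, hx⟩) : ℂˣ) : ℂ) - 1 = φ y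
        rw [map_mul, map_mul, map_inv, mul_right_comm, inv_mul_cancel, one_mul]
      by_cases hbx : b * x ∈ J
      · rw [if_neg hx, if_pos hbx, zero_add]
        set z : J := ⟨b * x, hbx⟩ with hz
        have e1 : x⁻¹ * (y : G) * x
            = ((z⁻¹ * ⟨b * y * b⁻¹, hbJ _ y.2⟩ * z : J) : G) := by
          show _ = (b * x)⁻¹ * (b * y * b⁻¹) * (b * x)
          group
        rw [e1, CharInd.extendByZero_coe]
        simp only [φ, map_mul, map_inv, mul_right_comm, inv_mul_cancel, one_mul,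
          hlb y ⟨b * y * b⁻¹, hbJ _ y.2⟩ rfl, Units.val_inv_eq_inv_val]
      · rw [if_neg hx, if_neg hbx, add_zero]
        by_contra hne
        by_cases hm : x⁻¹ * y * x ∈ J
        · rw [CharInd.extendByZero_mem J φ hm] at hne
          have hl : l ⟨_, hm⟩ ≠ 1 := fun q => hne (by simp [φ, q])
          have h2 := hlT _ hl
          simp only at h2
          have hxN : x⁻¹ ∈ normalizer (T : Set G) := h.ti (hlT y hy) hy2 (by
            rw [show x⁻¹ * ((y : G) * y) * x⁻¹⁻¹ = x⁻¹ * y * x * (x⁻¹ * y * x) by group]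
            exact h2)
          obtain ⟨τ, hτ, q | q | q | q⟩ := h.dec x (by simpa using inv_mem hxN)
          · exact hx (h.mem_J_iff.2 ⟨τ, hτ, Or.inl q⟩)
          · exact hx (h.mem_J_iff.2 ⟨τ, hτ, Or.inr q⟩)
          · refine hbx (h.mem_J_iff.2 ⟨b * τ * b⁻¹, h.conjT h.bN hτ, Or.inl ?_⟩)
            rw [q, h.binv, mul_assoc]
          · refine hbx (h.mem_J_iff.2 ⟨b * τ * b⁻¹, h.conjT h.bN hτ, Or.inr ?_⟩)
            rw [q, h.tb.eq, h.binv]
            group
        · exact hne (CharInd.extendByZero_notMem J φ hm)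
    have hcJ : ((Finset.univ.filter fun x : G => x ∈ J).card : ℂ) = 18 := by
      rw [← hJ18, Nat.card_eq_fintype_card, ← Fintype.card_subtype]
    have hcbJ : ((Finset.univ.filter fun x : G => b * x ∈ J).card : ℂ) = 18 := by
      rw [← hJ18, Nat.card_eq_fintype_card, ← Fintype.card_subtype]
      exact congrArg _ (Fintype.card_congr ((Equiv.mulLeft b).subtypeEquiv fun _ => Iff.rfl))
    have hw : (l y : ℂ) + (l y : ℂ)⁻¹ = -1 := by
      set w := (l y : ℂ) with hw
      have hw3 : w ^ 3 = 1 := by rw [hw, ← Units.val_pow_eq_pow_val, hl3, Units.val_one]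
      have hw1 : w ≠ 1 := fun q => hy (Units.ext q)
      have hinv : w⁻¹ = w ^ 2 := by
        refine inv_eq_of_mul_eq_one_right ?_
        rw [← hw3]; ring
      have : (w - 1) * (w ^ 2 + w + 1) = 0 := by linear_combination hw3
      rcases mul_eq_zero.1 this with q | q
      · exact absurd (sub_eq_zero.1 q) hw1
      · rw [hinv]; linear_combination q
    refine mul_left_cancel₀ (b := C y) (c := (-3 : ℂ)) (show (Nat.card J : ℂ) ≠ 0 from
      CharInd.natCard_ne_zero) ?_
    rw [hC, CharInd.card_mul_indFun]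
    simp only [hval, Finset.sum_add_distrib, ← Finset.sum_filter, Finset.sum_const, nsmul_eq_mul,
      hcJ, hcbJ, hJ18, φ]
    linear_combination 18 * hw
  have hsum : ∑ z : J, (l z : ℂ) = 0 := Char.monoidHom_sum_eq_zero hl1
  have hφsum : ∑ z : J, φ z = -18 := by
    simp only [φ, Finset.sum_sub_distrib, hsum, Finset.sum_const, Finset.card_univ, nsmul_eq_mul,
      mul_one, zero_sub, ← Nat.card_eq_fintype_card, hJ18]
  have hnorm : classInner C C = 3 := by
    rw [show classInner C C = classInner φ (fun z : J => C z) from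
      CharInd.classInner_indFun_left J φ hCcl, classInner]
    have : ∀ z : J, φ z * conj (C z) = φ z * (-3) := fun z => by
      by_cases hz : l z = 1
      · simp [φ, hz]
      · rw [hCy z hz, map_neg, Complex.conj_ofNat]
    rw [Finset.sum_congr rfl fun z _ => this z, ← Finset.sum_mul, hφsum, hJ18]
    norm_num
  choose m hm using Char.isGeneralizedCharacter_classInner_int hCgen
  have hexp : ∀ g, C g = ∑ χ : IrrCharacter G, (m χ : ℂ) * (χ : G → ℂ) g := fun g => by
    conv_lhs => rw [Char.eq_sum_classInner_smul hCcl]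
    simp [hm]
  have hmtriv : m (Char.trivialIrr G) = -1 := by
    have h1 : classInner C (fun _ => (1 : ℂ)) = -1 := by
      rw [hC, CharInd.classInner_indFun_left J φ (fun _ _ => rfl), classInner]
      simp only [map_one, mul_one, hφsum, hJ18]
      norm_num
    have h2 : (m (Char.trivialIrr G) : ℂ) = -1 := by
      rw [← hm]; exact h1
    exact_mod_cast h2
  have hsq : ∑ χ, m χ * m χ = 3 := by
    have h1 := Char.classInner_eq_sum_mul_conj (b := C) hCcl
    rw [hnorm] at h1
    simp only [hm, map_intCast] at h1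
    exact_mod_cast h1.symm
  -- the class-multiplication relation
  have hrel : ∑ χ : IrrCharacter G,
      (m χ : ℂ) * ((χ : G → ℂ) t * (χ : G → ℂ) t / (χ : G → ℂ) 1) = 0 := by
    have h1 : ∀ χ : IrrCharacter G,
        (m χ : ℂ) = (Nat.card J : ℂ)⁻¹ * ∑ z : J, φ z * conj ((χ : G → ℂ) z) := fun χ => by
      rw [← hm, hC, CharInd.classInner_indFun_left J φ (Char.irr_isClassFunction χ.2)]
      rfl
    simp only [h1, mul_assoc, ← Finset.mul_sum, Finset.sum_mul]
    rw [Finset.sum_comm]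
    refine mul_eq_zero_of_right _ (Finset.sum_eq_zero fun z _ => ?_)
    rw [← Finset.mul_sum]
    by_cases hz : l z = 1
    · simp [φ, hz]
    refine mul_eq_zero_of_right _ ?_
    have h2 := S0840.result t t (z : G)
    rw [h.card_pairs_eq_zero hnc hl3 hlT hle z hz, Nat.cast_zero, finsum_eq_sum_of_fintype] at h2
    have hne : (Nat.card {x : G // IsConj t x} : ℂ) ≠ 0 := by
      haveI : Nonempty {x : G // IsConj t x} := ⟨⟨t, IsConj.refl t⟩⟩
      exact Nat.cast_ne_zero.2 Nat.card_pos.ne'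
    have h3 := (mul_eq_zero.1 h2.symm).resolve_left
      (div_ne_zero (mul_ne_zero hne hne) CharInd.natCard_ne_zero)
    refine Eq.trans (Finset.sum_congr rfl fun χ _ => ?_) h3
    ring
  set tr := Char.trivialIrr G with htr
  set S := (Finset.univ.erase tr).filter (fun χ => ¬ m χ = 0) with hS
  have hsqS : ∑ χ ∈ S, m χ * m χ = 2 := by
    have hsplit := Finset.add_sum_erase Finset.univ (fun χ => m χ * m χ) (Finset.mem_univ tr)
    have h0 : ∑ χ ∈ S, m χ * m χ = ∑ χ ∈ Finset.univ.erase tr, m χ * m χ := by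
      refine Finset.sum_subset (Finset.filter_subset _ _) fun χ hχ hn => ?_
      by_contra q
      exact hn (Finset.mem_filter.2 ⟨hχ, fun q' => q (by rw [q', mul_zero])⟩)
    rw [h0]
    simp only [hmtriv] at hsplit
    linarith
  have hone : ∀ χ ∈ S, 1 ≤ m χ * m χ := fun χ hχ => by
    rcases lt_or_gt_of_ne (Finset.mem_filter.1 hχ).2 with q | q <;> nlinarith
  have hSle : (S.card : ℤ) ≤ 2 := by
    rw [← hsqS]
    simpa using Finset.card_nsmul_le_sum S (fun χ => m χ * m χ) 1 hone
  have hS2 : S.card = 2 := by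
    have h' : S.card = 0 ∨ S.card = 1 ∨ S.card = 2 := by omega
    rcases h' with q | q | q
    · rw [Finset.card_eq_zero.1 q] at hsqS; simp at hsqS
    · exfalso
      obtain ⟨a, ha⟩ := Finset.card_eq_one.1 q
      rw [ha, Finset.sum_singleton] at hsqS
      have h1 : m a ≤ 1 := by nlinarith
      have h2 : -1 ≤ m a := by nlinarith
      interval_cases m a <;> omega
    · exact q
  obtain ⟨a, c, hac, hSeq⟩ := Finset.card_eq_two.1 hS2
  have haS : a ∈ S := hSeq ▸ Finset.mem_insert_self a {c}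
  have hcS : c ∈ S := hSeq ▸ Finset.mem_insert_of_mem (Finset.mem_singleton_self c)
  rw [hSeq, Finset.sum_pair hac] at hsqS
  have hma : m a * m a = 1 := by
    have := hone a haS; have := hone c hcS; omega
  have hmc : m c * m c = 1 := by omega
  have hthree : ∀ F : IrrCharacter G → ℂ,
      ∑ χ, (m χ : ℂ) * F χ = -F tr + m a * F a + m c * F c := by
    intro F
    rw [← Finset.add_sum_erase Finset.univ _ (Finset.mem_univ tr), hmtriv,
      ← Finset.sum_subset (s₁ := S) (Finset.filter_subset _ _) (fun χ hχ hn => by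
        by_contra q
        exact hn (Finset.mem_filter.2 ⟨hχ, fun q' => q (by simp [q'])⟩)),
      hSeq, Finset.sum_pair hac]
    push_cast; ring
  have e1 := hC1 ▸ (hexp 1).trans (hthree fun χ => (χ : G → ℂ) 1)
  have e2 := hCt ▸ (hexp t).trans (hthree fun χ => (χ : G → ℂ) t)
  have e3 := hrel.symm.trans (hthree fun χ => (χ : G → ℂ) t * (χ : G → ℂ) t / (χ : G → ℂ) 1)
  simp only [htr, Char.trivialIrr, mul_one, div_one] at e1 e2 e3
  have hd : ∀ χ : IrrCharacter G, (χ : G → ℂ) 1 ≠ 0 := fun χ => by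
    obtain ⟨n, hn, hn'⟩ := Char.irr_one_pos χ.2
    rw [hn']; exact Nat.cast_ne_zero.2 hn.ne'
  set A := (a : G → ℂ) t with hA
  set D := (a : G → ℂ) 1 with hD
  set A' := (c : G → ℂ) t with hA'
  set D' := (c : G → ℂ) 1 with hD'
  have hma' : (m a : ℂ) * m a = 1 := by exact_mod_cast hma
  have hmc' : (m c : ℂ) * m c = 1 := by exact_mod_cast hmc
  have e3' : (-1 : ℂ) * (D * D') + m a * (A * A) * D' + m c * (A' * A') * D = 0 := by
    have := congrArg (· * (D * D')) e3
    simp only [zero_mul] at this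
    rw [this]
    field_simp [hd a, hd c, hD, hD']
  have hAD : A = D := by
    have hDc : D' = (m c : ℂ) * (1 - m a * D) := by linear_combination (-(m c : ℂ)) * e1 + (-D') * hmc'
    have hAc : A' = (m c : ℂ) * (1 - m a * A) := by linear_combination (-(m c : ℂ)) * e2 + (-A') * hmc'
    rw [hDc, hAc] at e3'
    have key : ((m a : ℂ) * m c) * ((A - D) * (A - D)) = 0 := by
      linear_combination e3' + (-(m c : ℂ) * (1 - m a * A) * (1 - m a * A) * D) * hmc'
    have hne : ((m a : ℂ) * m c) ≠ 0 := mul_ne_zero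
      (fun q => by simp [q] at hma') (fun q => by simp [q] at hmc')
    exact sub_eq_zero.1 (mul_self_eq_zero.1 ((mul_eq_zero.1 key).resolve_left hne))
  obtain ⟨K, hKn, hK⟩ := Char.isCharacter_exists_kernel (Char.isCharacter_of_irr a.2)
  refine ⟨K, hKn, fun q => ?_, (hK t).2 hAD⟩
  have hconst : ∀ g, (a : G → ℂ) g = D := fun g => (hK g).1 (q ▸ mem_top g)
  have hatr : a ≠ tr := (Finset.mem_erase.1 (Finset.mem_filter.1 haS).1).1
  have h0 := Char.irr_sum_eq_zero a.2 fun q' => hatr (Subtype.ext q')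
  simp only [hconst, Finset.sum_const, Finset.card_univ, nsmul_eq_mul, mul_eq_zero,
    Nat.cast_eq_zero] at h0
  exact h0.elim (fun q' => Fintype.card_ne_zero q') (hd a)

end Hyp

end Cfsg.Agent.KleinNine
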