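import Cfsg.Agent.KleinNine.Ind
import Cfsg.Agent.SelfCentThree.Main
import Cfsg.Agent.SmallGroups.Basic

/-!
# The Sylow three-subgroup is normal
-/

set_option autoImplicit false
set_option linter.unusedSectionVars false
set_option linter.style.haveILetI false

namespace Cfsg.Agent.KleinNine

open Subgroup
open scoped Pointwise IsMulCommutative

universe u

variable {G : Type u} [Group G] [Finite G] {T : Subgroup G} {e f t b : G}

namespace Hyp

variable (h : Hyp T e f t b)
include h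

/-- A `T`-invariant subgroup of order prime to three is trivial. -/
theorem invariant_eq_bot {R : Subgroup G} (h3 : ¬ 3 ∣ Nat.card R)
    (hR : ∀ τ ∈ T, ∀ r ∈ R, τ * r * τ⁻¹ ∈ R) : R = ⊥ := by
  refine (Subgroup.eq_bot_iff_forall R).2 fun a ha => ?_
  have fpf : ∀ τ ∈ T, τ ≠ 1 → ∀ r ∈ R,
      r * (τ * r * τ⁻¹) * (τ * τ * r * (τ * τ)⁻¹) = 1 ∧ Commute r (τ * r * τ⁻¹) := by
    intro τ hτ hτ1 r hr
    let ρ : MulAut R :=
      { toFun := fun m => ⟨τ * m * τ⁻¹, hR τ hτ m m.2⟩
        invFun := fun m => ⟨τ⁻¹ * m * τ⁻¹⁻¹, hR τ⁻¹ (inv_mem hτ) m m.2⟩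
        left_inv := fun m => Subtype.ext (by group)
        right_inv := fun m => Subtype.ext (by group)
        map_mul' := fun a b => Subtype.ext (by simp [mul_assoc]) }
    have hρ : TwoAut.FpfThree ρ := by
      refine ⟨fun m => Subtype.ext ?_, fun m hm => Subtype.ext ?_⟩
      · show τ * (τ * (τ * (m : G) * τ⁻¹) * τ⁻¹) * τ⁻¹ = m
        calc τ * (τ * (τ * (m : G) * τ⁻¹) * τ⁻¹) * τ⁻¹ = (τ * τ * τ) * m * (τ * τ * τ)⁻¹ := by group
          _ = m := by rw [h.cube hτ]; simp
      · refine h.eq_one_of_invariant h3 hR m.2 (h.loc τ hτ hτ1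
          (mem_centralizer_singleton_iff.2 ?_))
        exact (mul_inv_eq_iff_eq_mul.1 (congrArg Subtype.val hm :)).symm
    refine ⟨?_, (congrArg Subtype.val (hρ.commute ⟨r, hr⟩).eq :)⟩
    have h1 : r * (τ * r * τ⁻¹) * (τ * (τ * r * τ⁻¹) * τ⁻¹) = 1 :=
      congrArg Subtype.val (hρ.mul_eq_one ⟨r, hr⟩)
    rwa [show τ * τ * r * (τ * τ)⁻¹ = τ * (τ * r * τ⁻¹) * τ⁻¹ by group]
  have hcomm : ∀ σ ∈ T, ∀ τ ∈ T, Commute (σ * a * σ⁻¹) (τ * a * τ⁻¹) := by
    intro σ hσ τ hτ
    by_cases q : σ⁻¹ * τ = 1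
    · rw [inv_mul_eq_one.1 q]
    · have h1 := (Commute.conj_iff σ).2 (fpf _ (mul_mem (inv_mem hσ) hτ) q a ha).2
      rwa [show σ * (σ⁻¹ * τ * a * (σ⁻¹ * τ)⁻¹) * σ⁻¹ = τ * a * τ⁻¹ by group] at h1
  have hef : e * f ∈ T := mul_mem h.he h.hf
  have hef1 : e * f ≠ 1 := fun q => h.indepE (by
    rw [mul_eq_one_iff_eq_inv.1 q]; exact inv_mem (mem_zpowers f))
  have hef2 : e * (f * f) ∈ T := mul_mem h.he (mul_mem h.hf h.hf)
  have hef21 : e * (f * f) ≠ 1 := fun q => h.indepE (by
    rw [mul_eq_one_iff_eq_inv.1 q]; exact inv_mem (mul_mem (mem_zpowers f) (mem_zpowers f)))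
  have hc : f * e = e * f := h.ef.eq.symm
  set u := a with hu
  set v := e * a * e⁻¹ with hv
  set w := f * a * f⁻¹ with hw
  set z := e * f * a * (e * f)⁻¹ with hz
  have cuv : Commute u v := by simpa using hcomm 1 (one_mem T) e h.he
  have cuw : Commute u w := by simpa using hcomm 1 (one_mem T) f h.hf
  have cuz : Commute u z := by
    have := hcomm 1 (one_mem T) _ hef
    rwa [one_mul, inv_one, mul_one] at this
  have cvw : Commute v w := hcomm e h.he f h.hf
  have cvz : Commute v z := hcomm e h.he _ hef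
  have cwz : Commute w z := hcomm f h.hf _ hef
  have n1 : e * e * a * (e * e)⁻¹ = (u * v)⁻¹ :=
    eq_inv_of_mul_eq_one_right (fpf e h.he h.e1 a ha).1
  have n3 : e * e * w * (e * e)⁻¹ = (w * z)⁻¹ := by
    refine eq_inv_of_mul_eq_one_right ?_
    have := (fpf e h.he h.e1 w (hR f h.hf a ha)).1
    rwa [show e * w * e⁻¹ = z by rw [hw, hz]; group] at this
  have n4 : f * f * v * (f * f)⁻¹ = (v * z)⁻¹ := by
    refine eq_inv_of_mul_eq_one_right ?_
    have := (fpf f h.hf h.f1 v (hR e h.he a ha)).1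
    rwa [show f * v * f⁻¹ = z by
      rw [hv, hz, show f * (e * a * e⁻¹) * f⁻¹ = f * e * a * (f * e)⁻¹ by group, hc]] at this
  -- `(ef)^2` on `a`
  have n5 : e * f * (e * f) * a * (e * f * (e * f))⁻¹ = u * v * (w * z) := by
    have hsq : e * f * (e * f) = e * e * (f * f) := h.ef.symm.mul_mul_mul_comm e f
    have n2 : f * f * a * (f * f)⁻¹ = (u * w)⁻¹ :=
      eq_inv_of_mul_eq_one_right (fpf f h.hf h.f1 a ha).1
    rw [hsq, show e * e * (f * f) * a * (e * e * (f * f))⁻¹
        = e * e * (f * f * a * (f * f)⁻¹) * (e * e)⁻¹ by group, n2,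
      ← conj_inv, ← conj_mul, hu, n1, n3, mul_inv_rev,
      inv_inv, inv_inv]
    exact (((cuw.mul_left cvw).mul_right (cuz.mul_left cvz))).symm.eq
  have r1 : u * z * (u * v * (w * z)) = 1 := by
    have := (fpf _ hef hef1 a ha).1
    rwa [n5] at this
  have r2 : u * (v * z)⁻¹ * (w * z)⁻¹ = 1 := by
    have := (fpf _ hef2 hef21 a ha).1
    have hsq : e * (f * f) * (e * (f * f)) = e * e * f := by
      rw [(h.ef.symm.mul_left h.ef.symm).mul_mul_mul_comm,
        show f * f * (f * f) = f * f * f * f by group, h.f3, one_mul]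
    rwa [show e * (f * f) * a * (e * (f * f))⁻¹ = f * f * v * (f * f)⁻¹ by
        rw [hv, (h.ef.mul_right h.ef).eq]; group, n4, hsq,
      show e * e * f * a * (e * e * f)⁻¹ = e * e * w * (e * e)⁻¹ by rw [hw]; group, n3] at this
  have r3 : u = w * z * (v * z) := by
    have := eq_inv_of_mul_eq_one_left ((mul_assoc _ _ _).symm.trans r2)
    rw [this, mul_inv_rev, inv_inv, inv_inv]
  have r4 : z * v * (w * z) = w * z * (v * z) := by
    rw [cvz.symm.eq]
    exact ((cvw.mul_left cwz.symm).mul_right (cvz.mul_left (Commute.refl z))).eq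
  have hcube : u * u * u = 1 := by
    calc u * u * u = u * u * (z * v * (w * z)) := by rw [r4, ← r3]
      _ = u * (u * z) * v * (w * z) := by group
      _ = u * (z * u) * v * (w * z) := by rw [cuz.eq]
      _ = 1 := by rw [← r1]; group
  by_contra hne
  haveI : Fact (Nat.Prime 3) := ⟨Nat.prime_three⟩
  refine h3 ?_
  have ho : orderOf a = 3 := orderOf_eq_prime (by rw [pow_succ, pow_two]; exact hcube) hne
  exact ho ▸ Subgroup.orderOf_dvd_natCard R ha

theorem exists_normal_three : ¬ IsConj t (t * b) →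
    ∃ M : Subgroup G, M.Normal ∧ t ∈ M ∧ e ∈ M ∧ f ∉ M := by
  intro hnc
  haveI : Fact (Nat.Prime 3) := ⟨Nat.prime_three⟩
  obtain ⟨K, hKn, hK, htK⟩ := h.exists_normal_proper hnc
  haveI := hKn
  set M := normalClosure ({t} : Set G) with hM
  have htM : t ∈ M := subset_normalClosure (Set.mem_singleton t)
  have hMn : M.Normal := normalClosure_normal
  have hMK : M ≤ K := normalClosure_le_normal (Set.singleton_subset_iff.2 htK)
  have heM : e ∈ M := by
    have h1 : t * (e * t⁻¹ * e⁻¹) ∈ M := mul_mem htM (hMn.conj_mem _ (inv_mem htM) e)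
    rwa [show t * (e * t⁻¹ * e⁻¹) = t * e * t⁻¹ * e⁻¹ by group, h.te,
      show e⁻¹ * e⁻¹ = e by
        rw [← mul_inv_rev, inv_eq_iff_mul_eq_one]
        exact h.e3] at h1
  refine ⟨M, hMn, htM, heM, fun hfM => ?_⟩
  have hfK : f ∈ K := hMK hfM
  have hTK : T ≤ K := fun x hx => by
    obtain ⟨i, j, rfl⟩ := h.span x hx
    exact mul_mem (zpow_mem (hMK heM) i) (zpow_mem hfK j)
  have hbK : b ∉ K := by
    intro hbK
    have hNK : normalizer (T : Set G) ≤ K := fun n hn => by
      obtain ⟨x, hx, q | q | q | q⟩ := h.dec n hn <;> rw [q]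
      exacts [hTK hx, mul_mem (hTK hx) htK, mul_mem (hTK hx) hbK,
        mul_mem (hTK hx) (mul_mem htK hbK)]
    let PT : Sylow 3 G := (IsPGroup.of_card (n := 2) h.card).toSylow h.idx
    have h1 : normalizer (T : Set G) ⊔ K = ⊤ := Sylow.normalizer_sup_eq_top' PT hTK
    rw [sup_of_le_right hNK] at h1
    exact hK h1
  set S := T.subgroupOf K with hS
  haveI : IsMulCommutative S :=
    ⟨⟨fun x y => Subtype.ext (Subtype.ext (h.commT x.2 y.2).eq)⟩⟩
  let tr : K →* S := MonoidHom.transfer (MonoidHom.id S)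
  have hS3 : ∀ x : S, x * x * x = 1 := fun x => Subtype.ext (Subtype.ext (h.cube x.2))
  have hkey : ∀ (k : ℕ) (g₀ : K), g₀⁻¹ * (⟨f, hfK⟩ : K) ^ k * g₀ ∈ S →
      g₀⁻¹ * (⟨f, hfK⟩ : K) ^ k * g₀ = (⟨f, hfK⟩ : K) ^ k := by
    intro k g₀ hg
    by_cases q : f ^ k = 1
    · rw [show (⟨f, hfK⟩ : K) ^ k = 1 from Subtype.ext q, mul_one, inv_mul_cancel]
    refine Subtype.ext ?_
    show (g₀ : G)⁻¹ * f ^ k * g₀ = f ^ k
    have hmem : (g₀ : G)⁻¹ * f ^ k * (g₀ : G) ∈ T := hg
    have hgN : (g₀ : G)⁻¹ ∈ normalizer (T : Set G) :=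
      h.ti (pow_mem h.hf k) q (by rw [inv_inv]; exact hmem)
    have hc : Commute (g₀ : G) f := by
      obtain ⟨x, hx, q' | q' | q' | q'⟩ := h.dec (g₀ : G) (by simpa using inv_mem hgN)
      · rw [q']; exact h.commT hx h.hf
      · rw [q']; exact (h.commT hx h.hf).mul_left h.tf
      · refine absurd ?_ hbK
        have := mul_mem (inv_mem (hTK hx)) g₀.2
        rwa [q', inv_mul_cancel_left] at this
      · refine absurd ?_ hbK
        have := mul_mem (inv_mem htK) (mul_mem (inv_mem (hTK hx)) g₀.2)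
        rwa [q', inv_mul_cancel_left, inv_mul_cancel_left] at this
    rw [mul_assoc, ← (hc.pow_right k).eq, inv_mul_cancel_left]
  have htrf : tr ⟨f, hfK⟩ ≠ 1 := by
    rw [show tr ⟨f, hfK⟩ = MonoidHom.transfer (MonoidHom.id S) ⟨f, hfK⟩ from rfl,
      MonoidHom.transfer_eq_pow _ _ hkey]
    intro q
    have q' : f ^ S.index = 1 := congrArg (fun z : S => ((z : K) : G)) q
    have h3 : 3 ∣ S.index := by
      rw [← orderOf_eq_prime (p := 3) (by rw [pow_succ, pow_two]; exact h.f3) h.f1]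
      exact orderOf_dvd_of_pow_eq_one q'
    refine h.idx (h3.trans ?_)
    have hcS : Nat.card S = 9 :=
      (Nat.card_congr (Subgroup.subgroupOfEquivOfLe hTK).toEquiv).trans h.card
    have h9 : 9 * S.index ∣ 9 * T.index := by
      rw [show 9 * S.index = Nat.card K from hcS ▸ S.card_mul_index,
        show 9 * T.index = Nat.card G from h.card ▸ T.card_mul_index]
      exact Subgroup.card_subgroup_dvd_card K
    exact Nat.dvd_of_mul_dvd_mul_left (by norm_num) h9
  have hle : M ≤ tr.ker.map K.subtype := by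
    rw [hM]
    refine (Subgroup.closure_le _).2 fun c hc => ?_
    obtain ⟨t', ht', hcj⟩ := Group.mem_conjugatesOfSet_iff.1 hc
    rw [Set.mem_singleton_iff] at ht'
    rw [ht'] at hcj
    obtain ⟨g, rfl⟩ := isConj_iff.1 hcj
    refine ⟨⟨g * t * g⁻¹, hKn.conj_mem t htK g⟩, MonoidHom.mem_ker.2 ?_, rfl⟩
    refine eq_one_of_sq_cube ?_ (hS3 _)
    rw [← map_mul, show (⟨g * t * g⁻¹, hKn.conj_mem t htK g⟩ : K) *
        ⟨g * t * g⁻¹, hKn.conj_mem t htK g⟩ = 1 from Subtype.ext (by
      show g * t * g⁻¹ * (g * t * g⁻¹) = 1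
      rw [show g * t * g⁻¹ * (g * t * g⁻¹) = g * (t * t) * g⁻¹ by group, h.t2, mul_one,
        mul_inv_cancel]), map_one]
  obtain ⟨c, hc, hcf⟩ := hle hfM
  exact htrf (by rw [show (⟨f, hfK⟩ : K) = c from Subtype.ext hcf.symm]; exact hc)

theorem normalizer_eq_top_of_not_conj (hnc : ¬ IsConj t (t * b)) :
    normalizer (T : Set G) = ⊤ := by
  haveI : Fact (Nat.Prime 3) := ⟨Nat.prime_three⟩
  obtain ⟨M, hMn, htM, heM, hfM⟩ := h.exists_normal_three hnc
  haveI := hMn
  have hTM : ∀ x ∈ T, x ∈ M → x ∈ zpowers e := by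
    intro x hx hxM
    obtain ⟨i, j, rfl⟩ := h.span x hx
    have hj : f ^ j ∈ M := by
      have := mul_mem (inv_mem (zpow_mem heM i)) hxM
      rwa [inv_mul_cancel_left] at this
    rcases zpow_three_cases h.f3 j with q | q | q
    · rw [q, mul_one]; exact zpow_mem (mem_zpowers e) i
    · exact absurd (q ▸ hj) hfM
    · rw [q] at hj; exact absurd (by simpa using inv_mem hj) hfM
  set x : M := ⟨e, heM⟩ with hx
  have hSC : SelfCentThree.SC x := by
    refine ⟨?_, fun g hg => ?_⟩
    · rw [hx, Subgroup.orderOf_mk]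
      exact orderOf_eq_prime (by rw [pow_succ, pow_two]; exact h.e3) h.e1
    · obtain ⟨τ, hτ, q | q⟩ := h.cent_e (congrArg Subtype.val hg.eq :)
      · obtain ⟨k, hk⟩ := hTM τ hτ (q ▸ g.2)
        exact ⟨k, Subtype.ext (by simpa [q] using hk)⟩
      · exfalso
        refine hfM ?_
        have h1 : (g : G) * (f * (g : G)⁻¹ * f⁻¹) ∈ M :=
          mul_mem g.2 (hMn.conj_mem _ (inv_mem g.2) f)
        rw [q, show τ * b * (f * (τ * b)⁻¹ * f⁻¹) = τ * (b * f * b⁻¹) * τ⁻¹ * f⁻¹ by group, h.bf,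
          (h.commT hτ (inv_mem h.hf)).eq, mul_inv_cancel_right,
          show f⁻¹ * f⁻¹ = f by
            rw [← mul_inv_rev, inv_eq_iff_mul_eq_one]
            exact h.f3] at h1
        exact h1
  have hMinv : ∀ τ ∈ T, ∀ m ∈ M, τ * m * τ⁻¹ ∈ M := fun τ _ m hm => hMn.conj_mem m hm τ
  have hbot : pPrimeCore 3 M = ⊥ := by
    haveI : (Cfsg.pPrimeCore 3 M).Characteristic := Cores.pPrimeCore_characteristic_inst
    have hn := Cores.normal_map_subtype_of_characteristic (Cfsg.pPrimeCore 3 M)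
    have h1 : (Cfsg.pPrimeCore 3 M).map M.subtype = ⊥ := h.invariant_eq_bot
      (by rw [Subgroup.card_subtype]; exact Cores.not_dvd_card_pPrimeCore)
      (fun τ _ r hr => hn.conj_mem r hr τ)
    rwa [Subgroup.map_eq_bot_iff_of_injective _ M.subtype_injective] at h1
  have ht2 : 2 ∣ Nat.card M := by
    have ho : orderOf (⟨t, htM⟩ : M) = 2 := by
      refine orderOf_eq_prime (Subtype.ext (by rw [pow_two]; exact h.t2)) fun q => h.t_notMem ?_
      rw [show t = 1 from congrArg Subtype.val q]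
      exact one_mem T
    exact ho ▸ orderOf_dvd_natCard _
  have hsyl : ∀ (q a : ℕ) [Fact q.Prime], ¬ 3 ∣ Nat.card (Sylow q M) → ¬ 3 ∣ q ^ a →
      1 < q ^ a → (∀ P : Sylow q M, Nat.card (P : Subgroup M) = q ^ a) → False := by
    intro q a _ hn h3 h1 hcard
    letI : MulAction T (Sylow q M) := MulAction.compHom _
      ((MulAut.conjNormal (H := M)).comp T.subtype)
    obtain ⟨P, hP⟩ := (IsPGroup.of_card (n := 2) h.card :
      IsPGroup 3 T).nonempty_fixed_point_of_prime_not_dvd_card (Sylow q M) hn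
    have hinv : ∀ τ ∈ T, ∀ r ∈ (P : Subgroup M).map M.subtype,
        τ * r * τ⁻¹ ∈ (P : Subgroup M).map M.subtype := by
      rintro τ hτ _ ⟨m, hm, rfl⟩
      have h2 : MulAut.conjNormal (H := M) τ • (P : Subgroup M) = P :=
        congrArg Sylow.toSubgroup (hP ⟨τ, hτ⟩)
      have h3 := Subgroup.smul_mem_pointwise_smul m (MulAut.conjNormal (H := M) τ) _ hm
      rw [h2] at h3
      exact ⟨_, h3, MulAut.conjNormal_apply τ m⟩
    have hb := h.invariant_eq_bot
      (R := (P : Subgroup M).map M.subtype) (by rw [Subgroup.card_subtype, hcard]; exact h3) hinv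
    have h4 := Subgroup.card_subtype M (P : Subgroup M)
    rw [hb, Subgroup.card_bot, hcard] at h4
    omega
  rcases SelfCentThree.coreFree_cases hSC hbot
    (fun K y _ hy => SelfCentThree.out_all (Nat.card K) y rfl hy) with
    e3 | e6 | ⟨-, -, e60 | e168, R, hR, hR4⟩
  · rw [e3] at ht2; norm_num at ht2
  · have hidx : (zpowers x).index = 2 := by
      have := (zpowers x).card_mul_index
      rw [Nat.card_zpowers, hSC.order, e6] at this
      omega
    rw [eq_top_iff]
    rintro g -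
    set y : M := ⟨g * e * g⁻¹, hMn.conj_mem e heM g⟩ with hy
    have hy3 : y * y * y = 1 := Subtype.ext (by
      show g * e * g⁻¹ * (g * e * g⁻¹) * (g * e * g⁻¹) = 1
      rw [show g * e * g⁻¹ * (g * e * g⁻¹) * (g * e * g⁻¹) = g * (e * e * e) * g⁻¹ by group, h.e3,
        mul_one, mul_inv_cancel])
    have hy4 : y ∈ zpowers x := by
      have h1 : y * y ∈ zpowers x := Subgroup.mul_self_mem_of_index_two hidx y
      have := mul_mem h1 h1
      rwa [show y * y * (y * y) = y * y * y * y by group, hy3, one_mul] at this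
    obtain ⟨k, hk⟩ := hy4
    refine h.ti h.he h.e1 ?_
    rw [show g * e * g⁻¹ = e ^ k from (congrArg Subtype.val hk).symm.trans (by simp [hx])]
    exact zpow_mem h.he k
  · exfalso
    haveI : Fact (Nat.Prime 2) := ⟨Nat.prime_two⟩
    have hRn : x ∈ normalizer (R : Set M) := by
      rw [← Fusion.cj_eq_iff_mem_normalizer]
      refine Subgroup.eq_of_le_of_card_ge (fun z hz => ?_) (Fusion.card_cj x R).ge
      obtain hz' := Fusion.mem_cj.1 hz
      have := hR.conj _ hz'
      rwa [show x * (x⁻¹ * z * x) * x⁻¹ = z by group] at this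
    have hidx : R.index = 15 := by
      have := R.card_mul_index
      rw [hR4, e60] at this
      omega
    let PR : Sylow 2 M := (IsPGroup.of_card (n := 2) hR4).toSylow (by rw [hidx]; norm_num)
    refine hsyl 2 2 ?_ (by norm_num) (by norm_num) (fun P => ?_)
    · rw [Sylow.card_eq_index_normalizer PR]
      intro h3
      have h4 : Nat.card R ∣ Nat.card (normalizer (R : Set M)) :=
        Subgroup.card_dvd_of_le le_normalizer
      have h5 : orderOf x ∣ Nat.card (normalizer (R : Set M)) :=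
        Subgroup.orderOf_dvd_natCard _ hRn
      rw [hR4] at h4
      rw [hSC.order] at h5
      have h12 : 12 ∣ Nat.card (normalizer (R : Set M)) :=
        (show Nat.Coprime 4 3 by norm_num).mul_dvd_of_dvd_of_dvd h4 h5
      have h36 := Nat.mul_dvd_mul h12 h3
      have h60 : Nat.card (normalizer (R : Set M)) * (normalizer (R : Set M)).index = 60 := by
        rw [Subgroup.card_mul_index, e60]
      rw [show (normalizer ((PR : Set M))).index
        = (normalizer (R : Set M)).index from rfl, h60] at h36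
      norm_num at h36
    · exact SmallGroups.card_sylow_subgroup (p := 2) (a := 2) (m := 15)
        (by rw [e60]; norm_num) (by norm_num) P
  · exfalso
    haveI : Fact (Nat.Prime 7) := ⟨by norm_num⟩
    have hd := SmallGroups.card_sylow_dvd (p := 7) (a := 1) (m := 24) (G := M)
      (by rw [e168]; norm_num)
    have h1 : Nat.card (Sylow 7 M) % 7 = 1 := card_sylow_modEq_one 7 M
    have hle := Nat.le_of_dvd (by norm_num) hd
    refine hsyl 7 1 ?_ (by norm_num) (by norm_num) (fun P =>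
      SmallGroups.card_sylow_subgroup (p := 7) (a := 1) (m := 24) (by rw [e168]; norm_num)
        (by norm_num) P)
    interval_cases Nat.card (Sylow 7 M) <;> omega

/-- The main result, in the normalized configuration. -/
theorem normalizer_eq_top : normalizer (T : Set G) = ⊤ := by
  by_cases hq : IsConj t (t * b)
  · refine h.symm.normalizer_eq_top_of_not_conj fun q => h.not_conj_t_b ?_
    rw [← h.tb.eq] at q
    exact hq.trans q.symm
  · exact h.normalizer_eq_top_of_not_conj hq

end Hyp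

end Cfsg.Agent.KleinNine
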