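import Cfsg.Agent.SelfCentThree.Basic
import Cfsg.Agent.Fusion.Basic

/-!
# Sylow three-subgroup of order nine with four-group automizer: local facts
-/

set_option autoImplicit false
set_option linter.unusedSectionVars false
set_option linter.style.haveILetI false

namespace Cfsg.Agent.KleinNine

open Subgroup
open scoped Pointwise

universe u

theorem eq_one_of_sq_cube {G : Type*} [Group G] {a : G} (h2 : a * a = 1) (h3 : a * a * a = 1) : a = 1 := by
  simpa [h2] using h3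

theorem zpow_three_cases {G : Type*} [Group G] {a : G} (h3 : a * a * a = 1) (i : ℤ) :
    a ^ i = 1 ∨ a ^ i = a ∨ a ^ i = a⁻¹ := by
  have h : a ^ (3 : ℤ) = 1 := by
    rw [show (3 : ℤ) = ((3 : ℕ) : ℤ) from rfl, zpow_natCast, pow_succ, pow_two, h3]
  have e : a ^ i = a ^ (i % 3) := by
    conv_lhs => rw [← Int.emod_add_mul_ediv i 3, zpow_add, zpow_mul, h, one_zpow, mul_one]
  rw [e]
  have h1 := Int.emod_nonneg i (b := 3) (by norm_num)
  have h2 := Int.emod_lt_of_pos i (b := 3) (by norm_num)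
  have hc : i % 3 = 0 ∨ i % 3 = 1 ∨ i % 3 = 2 := by omega
  rcases hc with r | r | r
  · exact Or.inl (by rw [r, zpow_zero])
  · exact Or.inr (Or.inl (by rw [r, zpow_one]))
  · refine Or.inr (Or.inr ?_)
    rw [r, show (2 : ℤ) = 3 + (-1) from rfl, zpow_add, h, one_mul, zpow_neg_one]

/-- The normalized configuration: `T = ⟨e, f⟩`, `t` inverts `e` and fixes `f`, `b` inverts `f` and fixes `e`. -/
structure Hyp {G : Type u} [Group G] (T : Subgroup G) (e f t b : G) : Prop where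
  card : Nat.card T = 9
  he : e ∈ T
  hf : f ∈ T
  e3 : e * e * e = 1
  f3 : f * f * f = 1
  e1 : e ≠ 1
  f1 : f ≠ 1
  span : ∀ x ∈ T, ∃ i j : ℤ, x = e ^ i * f ^ j
  indepE : e ∉ zpowers f
  indepF : f ∉ zpowers e
  cent : centralizer (T : Set G) = T
  loc : ∀ x ∈ T, x ≠ 1 → centralizer ({x} : Set G) ≤ normalizer (T : Set G)
  syl : ∀ P : Subgroup G, IsPGroup 3 P → ∃ g : G, ∀ z ∈ P, g⁻¹ * z * g ∈ T
  idx : ¬ 3 ∣ T.index
  tN : t ∈ normalizer (T : Set G)
  bN : b ∈ normalizer (T : Set G)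
  t2 : t * t = 1
  b2 : b * b = 1
  tb : Commute t b
  te : t * e * t⁻¹ = e⁻¹
  tf : Commute t f
  be : Commute b e
  bf : b * f * b⁻¹ = f⁻¹
  dec : ∀ n ∈ normalizer (T : Set G), ∃ x ∈ T, n = x ∨ n = x * t ∨ n = x * b ∨ n = x * (t * b)

variable {G : Type u} [Group G] [Finite G] {T : Subgroup G} {e f t b : G}

namespace Hyp

variable (h : Hyp T e f t b)
include h

theorem commT {x y : G} (hx : x ∈ T) (hy : y ∈ T) : Commute x y :=
  (mem_centralizer_iff.1 (by rw [h.cent]; exact hy) x hx)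

theorem ef : Commute e f := h.commT h.he h.hf

theorem cube {x : G} (hx : x ∈ T) : x * x * x = 1 := by
  obtain ⟨i, j, rfl⟩ := h.span x hx
  have h1 : ∀ (a : G) (_ : a * a * a = 1) (k : ℤ), a ^ k * a ^ k * a ^ k = 1 := fun a ha k => by
    rw [← zpow_add, ← zpow_add, show k + k + k = 3 * k by ring, zpow_mul,
      show a ^ (3 : ℤ) = 1 by
        rw [show (3 : ℤ) = ((3 : ℕ) : ℤ) from rfl, zpow_natCast, pow_succ, pow_two, ha], one_zpow]
  have hc : Commute (e ^ i) (f ^ j) := (h.ef.zpow_zpow i j)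
  calc e ^ i * f ^ j * (e ^ i * f ^ j) * (e ^ i * f ^ j)
      = (e ^ i * e ^ i * e ^ i) * (f ^ j * f ^ j * f ^ j) := by
        rw [hc.symm.mul_mul_mul_comm, (hc.symm.mul_left hc.symm).mul_mul_mul_comm]
    _ = 1 := by rw [h1 e h.e3, h1 f h.f3, one_mul]

theorem conjT {n x : G} (hn : n ∈ normalizer (T : Set G)) (hx : x ∈ T) : n * x * n⁻¹ ∈ T :=
  (mem_normalizer_iff.1 hn x).1 hx

theorem tinv : t⁻¹ = t := inv_eq_of_mul_eq_one_right h.t2

theorem binv : b⁻¹ = b := inv_eq_of_mul_eq_one_right h.b2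

theorem tb2 : t * b * (t * b) = 1 := by
  rw [h.tb.symm.mul_mul_mul_comm, h.t2, h.b2, one_mul]

theorem tb_e : t * b * e * (t * b)⁻¹ = e⁻¹ := by
  calc t * b * e * (t * b)⁻¹ = t * (b * e * b⁻¹) * t⁻¹ := by group
    _ = e⁻¹ := by rw [h.be.eq, mul_inv_cancel_right, h.te]

theorem tb_f : t * b * f * (t * b)⁻¹ = f⁻¹ := by
  calc t * b * f * (t * b)⁻¹ = t * (b * f * b⁻¹) * t⁻¹ := by group
    _ = f⁻¹ := by rw [h.bf, h.tf.inv_right.eq, mul_inv_cancel_right]

theorem einv_ne : e⁻¹ ≠ e := fun q => h.e1 (eq_one_of_sq_cube (by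
  nth_rw 1 [← q]
  exact inv_mul_cancel e) h.e3)

theorem finv_ne : f⁻¹ ≠ f := fun q => h.f1 (eq_one_of_sq_cube (by
  nth_rw 1 [← q]
  exact inv_mul_cancel f) h.f3)

theorem symm : Hyp T f e b t where
  card := h.card
  he := h.hf
  hf := h.he
  e3 := h.f3
  f3 := h.e3
  e1 := h.f1
  f1 := h.e1
  span x hx := by
    obtain ⟨i, j, rfl⟩ := h.span x hx
    exact ⟨j, i, (h.ef.zpow_zpow i j).eq⟩
  indepE := h.indepF
  indepF := h.indepE
  cent := h.cent
  loc := h.loc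
  syl := h.syl
  idx := h.idx
  tN := h.bN
  bN := h.tN
  t2 := h.b2
  b2 := h.t2
  tb := h.tb.symm
  te := h.bf
  tf := h.be
  be := h.tf
  bf := h.te
  dec n hn := by
    obtain ⟨x, hx, q⟩ := h.dec n hn
    refine ⟨x, hx, ?_⟩
    rcases q with q | q | q | q
    exacts [Or.inl q, Or.inr (Or.inr (Or.inl q)), Or.inr (Or.inl q),
      Or.inr (Or.inr (Or.inr (q.trans (congrArg (x * ·) h.tb.eq))))]

theorem t_notMem : t ∉ T := fun ht => h.einv_ne (by
  rw [← h.te, (h.commT ht h.he).eq, mul_inv_cancel_right])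

theorem b_notMem : b ∉ T := h.symm.t_notMem

theorem tb_notMem : t * b ∉ T := fun ht => h.einv_ne (by
  rw [← h.tb_e, (h.commT ht h.he).eq, mul_inv_cancel_right])

theorem three_mem {z : G} (hz : z ∈ normalizer (T : Set G)) (h3 : z * z * z = 1) : z ∈ T := by
  obtain ⟨x, hx, q⟩ := h.dec z hz
  have key : ∀ w : G, w * w = 1 → w ∈ normalizer (T : Set G) → w ∉ T → z = x * w → False := by
    intro w w2 wN wT q
    have winv : w⁻¹ = w := inv_eq_of_mul_eq_one_right w2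
    have e1 : x * (w * x * w⁻¹) * x * w = 1 := by
      calc x * (w * x * w⁻¹) * x * w = (x * w) * (x * w⁻¹) * (x * w) := by group
        _ = 1 := by rw [winv, ← q, h3]
    have hm : x * (w * x * w⁻¹) * x ∈ T := mul_mem (mul_mem hx (h.conjT wN hx)) hx
    exact wT (by
      rw [show w = (x * (w * x * w⁻¹) * x)⁻¹ from eq_inv_of_mul_eq_one_right e1]
      exact inv_mem hm)
  rcases q with q | q | q | q
  · rw [q]; exact hx
  · exact (key t h.t2 h.tN h.t_notMem q).elim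
  · exact (key b h.b2 h.bN h.b_notMem q).elim
  · exact (key (t * b) h.tb2 (mul_mem h.tN h.bN) h.tb_notMem q).elim

/-- `T` is a trivial-intersection set with normalizer `N`. -/
theorem ti {g x : G} (hx : x ∈ T) (hx1 : x ≠ 1) (hg : g * x * g⁻¹ ∈ T) :
    g ∈ normalizer (T : Set G) := by
  have hy1 : g * x * g⁻¹ ≠ 1 := fun q => hx1 (conj_eq_one_iff.1 q)
  rw [← Fusion.cj_eq_iff_mem_normalizer]
  refine Subgroup.eq_of_le_of_card_ge ?_ (Fusion.card_cj g _).ge
  intro z hz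
  have hz' : g⁻¹ * z * g ∈ T := Fusion.mem_cj.1 hz
  have hc : Commute z (g * x * g⁻¹) := by
    have := (Commute.conj_iff g).2 (h.commT hz' hx)
    rwa [show g * (g⁻¹ * z * g) * g⁻¹ = z by group] at this
  refine h.three_mem (h.loc _ hg hy1 (mem_centralizer_singleton_iff.2 hc.eq)) ?_
  calc z * z * z = g * ((g⁻¹ * z * g) * (g⁻¹ * z * g) * (g⁻¹ * z * g)) * g⁻¹ := by group
    _ = 1 := by rw [h.cube hz', mul_one, mul_inv_cancel]

/-- A `T`-invariant subgroup of order prime to three meets the normalizer trivially. -/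
theorem eq_one_of_invariant {R : Subgroup G} (h3 : ¬ 3 ∣ Nat.card R)
    (hR : ∀ τ ∈ T, ∀ r ∈ R, τ * r * τ⁻¹ ∈ R) {r : G} (hr : r ∈ R)
    (hrN : r ∈ normalizer (T : Set G)) : r = 1 := by
  haveI : Fact (Nat.Prime 3) := ⟨Nat.prime_three⟩
  have hone : ∀ z ∈ R, z ∈ T → z = 1 := fun z hz hzT => by
    by_contra hne
    refine h3 ?_
    have ho : orderOf z = 3 := orderOf_eq_prime (by rw [pow_succ, pow_two]; exact h.cube hzT) hne
    exact ho ▸ Subgroup.orderOf_dvd_natCard R hz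
  have hcomm : ∀ τ ∈ T, τ * r = r * τ := fun τ hτ => by
    have h1 : τ * r * τ⁻¹ * r⁻¹ = 1 := by
      refine hone _ (mul_mem (hR τ hτ r hr) (inv_mem hr)) ?_
      rw [show τ * r * τ⁻¹ * r⁻¹ = τ * (r * τ⁻¹ * r⁻¹) by group]
      exact mul_mem hτ (h.conjT hrN (inv_mem hτ))
    have := mul_inv_eq_one.1 h1
    exact mul_inv_eq_iff_eq_mul.1 this
  refine hone r hr ?_
  rw [← h.cent]
  exact mem_centralizer_iff.2 hcomm

theorem conj_zpow_e {n : G} (hn : n * e * n⁻¹ = e ∨ n * e * n⁻¹ = e⁻¹) :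
    n * e * n⁻¹ ∈ zpowers e := by
  rcases hn with q | q <;> rw [q]
  exacts [mem_zpowers e, inv_mem (mem_zpowers e)]

theorem norm_e {n : G} (hn : n ∈ normalizer (T : Set G)) :
    n * e * n⁻¹ = e ∨ n * e * n⁻¹ = e⁻¹ := by
  obtain ⟨x, hx, q⟩ := h.dec n hn
  have hxc : ∀ y : G, y ∈ T → x * y * x⁻¹ = y := fun y hy => by
    rw [(h.commT hx hy).eq, mul_inv_cancel_right]
  rcases q with q | q | q | q
  · exact Or.inl (by rw [q]; exact hxc e h.he)
  · exact Or.inr (by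
      rw [q, show x * t * e * (x * t)⁻¹ = x * (t * e * t⁻¹) * x⁻¹ by group, h.te]
      exact hxc _ (inv_mem h.he))
  · exact Or.inl (by
      rw [q, show x * b * e * (x * b)⁻¹ = x * (b * e * b⁻¹) * x⁻¹ by group, h.be.eq,
        mul_inv_cancel_right]
      exact hxc e h.he)
  · exact Or.inr (by
      rw [q, show x * (t * b) * e * (x * (t * b))⁻¹ = x * (t * b * e * (t * b)⁻¹) * x⁻¹ by group,
        h.tb_e]
      exact hxc _ (inv_mem h.he))

theorem cent_f {g : G} (hg : Commute g f) : ∃ x ∈ T, g = x ∨ g = x * t := by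
  obtain ⟨x, hx, q⟩ := h.dec g (h.loc f h.hf h.f1 (mem_centralizer_singleton_iff.2 hg.eq))
  refine ⟨x, hx, ?_⟩
  have hxf : ∀ y : G, y ∈ T → x * y * x⁻¹ = y := fun y hy => by
    rw [(h.commT hx hy).eq, mul_inv_cancel_right]
  have hfix : g * f * g⁻¹ = f := by rw [hg.eq, mul_inv_cancel_right]
  rcases q with q | q | q | q
  · exact Or.inl q
  · exact Or.inr q
  · exfalso
    refine h.finv_ne ?_
    conv_rhs => rw [← hfix, q]
    rw [show x * b * f * (x * b)⁻¹ = x * (b * f * b⁻¹) * x⁻¹ by group, h.bf,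
      hxf _ (inv_mem h.hf)]
  · exfalso
    refine h.finv_ne ?_
    conv_rhs => rw [← hfix, q]
    rw [show x * (t * b) * f * (x * (t * b))⁻¹ = x * (t * b * f * (t * b)⁻¹) * x⁻¹ by group,
      h.tb_f, hxf _ (inv_mem h.hf)]

theorem cent_e {g : G} (hg : Commute g e) : ∃ x ∈ T, g = x ∨ g = x * b := h.symm.cent_f hg

theorem cent_t {x : G} (hx : x ∈ T) (hc : Commute x t) : x ∈ zpowers f := by
  obtain ⟨i, j, rfl⟩ := h.span x hx
  have h1 : t * (e ^ i * f ^ j) * t⁻¹ = e ^ i * f ^ j := by rw [← hc.eq, mul_inv_cancel_right]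
  rw [show t * (e ^ i * f ^ j) * t⁻¹ = (t * e ^ i * t⁻¹) * (t * f ^ j * t⁻¹) by group, ← conj_zpow,
    h.te, (h.tf.zpow_right j).eq, mul_inv_cancel_right, mul_left_inj] at h1
  rcases zpow_three_cases h.e3 i with q | q | q
  · rw [q, one_mul]; exact zpow_mem (mem_zpowers f) j
  · rw [inv_zpow, q] at h1; exact absurd h1 h.einv_ne
  · rw [inv_zpow, q, inv_inv] at h1; exact absurd h1.symm h.einv_ne

/-- An involution `x w` with `w` an involution is conjugate to `w`. -/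
theorem invol_conj {x w : G} (hx : x ∈ T) (w2 : w * w = 1) (hs : x * w * (x * w) = 1) :
    IsConj w (x * w) := by
  have winv : w⁻¹ = w := inv_eq_of_mul_eq_one_right w2
  have h1 : w * x * w⁻¹ = x⁻¹ := by
    rw [eq_comm, inv_eq_iff_mul_eq_one]
    calc x * (w * x * w⁻¹) = x * w * (x * w⁻¹) := by group
      _ = 1 := by rw [winv, hs]
  refine isConj_iff.2 ⟨x * x, ?_⟩
  calc x * x * w * (x * x)⁻¹ = x * x * ((w * x * w⁻¹)⁻¹ * (w * x * w⁻¹)⁻¹) * w := by group
    _ = x * x * x * x * w := by rw [h1, inv_inv]; group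
    _ = x * w := by rw [h.cube hx, one_mul]

/-- `t` and `b` are not conjugate. -/
theorem not_conj_t_b : ¬ IsConj t b := by
  intro hcj
  obtain ⟨g, hg⟩ := isConj_iff.1 hcj
  haveI : Fact (Nat.Prime 3) := ⟨Nat.prime_three⟩
  set C : Subgroup G := centralizer {t} with hCdef
  have hfC : f ∈ C := mem_centralizer_singleton_iff.2 h.tf.symm.eq
  have he'C : g⁻¹ * e * g ∈ C := by
    refine mem_centralizer_singleton_iff.2 ?_
    have h1 := (Commute.conj_iff g⁻¹).2 h.be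
    rw [← hg, show g⁻¹ * (g * t * g⁻¹) * g⁻¹⁻¹ = t by group, inv_inv] at h1
    exact h1.symm.eq
  have hp : ∀ z : C, (z : G) * z * z = 1 → IsPGroup 3 (zpowers z) := by
    intro z hz
    rintro ⟨w, k, rfl⟩
    refine ⟨1, Subtype.ext (Subtype.ext ?_)⟩
    show ((z : G) ^ k) ^ (3 ^ 1) = 1
    rw [pow_one, ← zpow_natCast, ← zpow_mul, mul_comm, zpow_mul, zpow_natCast, pow_succ, pow_two,
      hz, one_zpow]
  obtain ⟨Q₀, hQ₀⟩ := (hp ⟨f, hfC⟩ h.f3).exists_le_sylow
  obtain ⟨Q₁, hQ₁⟩ := (hp ⟨_, he'C⟩ (by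
    show g⁻¹ * e * g * (g⁻¹ * e * g) * (g⁻¹ * e * g) = 1
    rw [show g⁻¹ * e * g * (g⁻¹ * e * g) * (g⁻¹ * e * g) = g⁻¹ * (e * e * e) * g by group, h.e3,
      mul_one, inv_mul_cancel])).exists_le_sylow
  obtain ⟨c, hc⟩ := MulAction.exists_smul_eq C Q₀ Q₁
  obtain ⟨s, hs⟩ := h.syl ((Q₀ : Subgroup C).map C.subtype) (Q₀.2.map _)
  have hfs : s⁻¹ * f * s ∈ T := hs f ⟨⟨f, hfC⟩, hQ₀ (mem_zpowers _), rfl⟩
  have hQf : ∀ z ∈ (Q₀ : Subgroup C), (z : G) ∈ zpowers f := by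
    intro z hz
    have hzs : s⁻¹ * (z : G) * s ∈ T := hs z ⟨z, hz, rfl⟩
    have hcz : Commute (z : G) f := by
      have := (Commute.conj_iff s).2 (h.commT hzs hfs)
      rwa [show s * (s⁻¹ * (z : G) * s) * s⁻¹ = z by group,
        show s * (s⁻¹ * f * s) * s⁻¹ = f by group] at this
    have hz3 : (z : G) * z * z = 1 := by
      calc (z : G) * z * z
          = s * ((s⁻¹ * z * s) * (s⁻¹ * z * s) * (s⁻¹ * z * s)) * s⁻¹ := by group
        _ = 1 := by rw [h.cube hzs, mul_one, mul_inv_cancel]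
    exact h.cent_t (h.three_mem (h.loc f h.hf h.f1 (mem_centralizer_singleton_iff.2 hcz.eq)) hz3)
      (mem_centralizer_singleton_iff.1 z.2)
  have he1 : (⟨_, he'C⟩ : C) ∈ MulAut.conj c • (Q₀ : Subgroup C) := by
    rw [← Sylow.coe_subgroup_smul]
    have := hQ₁ (mem_zpowers (⟨_, he'C⟩ : C))
    rw [← hc] at this
    exact this
  rw [Subgroup.mem_pointwise_smul_iff_inv_smul_mem] at he1
  have he2 := hQf _ he1
  simp only [MulAut.smul_def, MulAut.inv_apply, MulAut.conj_symm_apply, Subgroup.coe_mul,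
    Subgroup.coe_inv] at he2
  set n : G := (c : G)⁻¹ * g⁻¹ with hn
  rw [show (c : G)⁻¹ * (g⁻¹ * e * g) * c = n * e * n⁻¹ by rw [hn]; group] at he2
  obtain ⟨k, hk⟩ := he2
  have hnT : n * e * n⁻¹ ∈ T := by rw [← hk]; exact zpow_mem h.hf k
  rcases h.norm_e (h.ti h.he h.e1 hnT) with q | q
  · exact h.indepE (by rw [← q, ← hk]; exact zpow_mem (mem_zpowers f) k)
  · exact h.indepE (by
      rw [← inv_inv e, ← q, ← hk]
      exact inv_mem (zpow_mem (mem_zpowers f) k))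

end Hyp

end Cfsg.Agent.KleinNine
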